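import Mathlib

namespace Cfsg.Agent.Lib.Helper22.SpGen

variable {K : Type*} [Field K] {V : Type*} [AddCommGroup V] [Module K V]

/-- The fixed space of a linear automorphism. -/
def fixS (e : V ≃ₗ[K] V) : Submodule K V where
  carrier := {x | e x = x}
  add_mem' := by
    intro a b ha hb
    simp only [Set.mem_setOf_eq] at *
    rw [map_add, ha, hb]
  zero_mem' := by simp
  smul_mem' := by
    intro c x hx
    simp only [Set.mem_setOf_eq] at *
    rw [map_smul, hx]

theorem mem_fixS (e : V ≃ₗ[K] V) (x : V) : x ∈ fixS e ↔ e x = x := Iff.rfl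

/-- Symplectic transvections exist and are isometries. -/
theorem exists_T (B : LinearMap.BilinForm K V) (hB : B.IsAlt) (u : V) (a : K) :
    ∃ t : V ≃ₗ[K] V, (∀ x, t x = x + (a * B u x) • u) ∧ (∀ x y, B (t x) (t y) = B x y) := by
  have h0 : (a • B u) u = 0 := by
    rw [LinearMap.smul_apply, hB u, smul_zero]
  have hap : ∀ x, LinearEquiv.transvection h0 x = x + (a * B u x) • u := by
    intro x
    rw [LinearEquiv.transvection.apply, LinearMap.smul_apply, smul_eq_mul]
  refine ⟨LinearEquiv.transvection h0, hap, ?_⟩
  intro x y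
  rw [hap, hap]
  have h1 : B x u = - B u x := (hB.neg_eq u x).symm
  simp only [map_add, map_smul, LinearMap.add_apply, LinearMap.smul_apply, smul_eq_mul, hB u, h1]
  ring

/-- The double-orthogonal separation: a vector outside `W` pairs nontrivially with some vector
of `W^⊥`. -/
theorem exists_pair_ne [FiniteDimensional K V] (B : LinearMap.BilinForm K V) (hB : B.IsAlt)
    (hnd : B.Nondegenerate) (W : Submodule K V) (x : V) (hx : x ∉ W) :
    ∃ w, (∀ z ∈ W, B z w = 0) ∧ B x w ≠ 0 := by
  by_contra hcon
  push Not at hcon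
  apply hx
  rw [← LinearMap.BilinForm.orthogonal_orthogonal hnd hB.isRefl W]
  rw [LinearMap.BilinForm.mem_orthogonal_iff]
  intro w hw
  rw [LinearMap.BilinForm.mem_orthogonal_iff] at hw
  have h1 := hcon w (fun z hz => hw z hz)
  have := hB.neg_eq x w
  rw [← this, h1, neg_zero]

/-- The reduction step: the fixed space can be enlarged by a product of transvections. -/
theorem step [FiniteDimensional K V] (B : LinearMap.BilinForm K V) (hB : B.IsAlt)
    (hnd : B.Nondegenerate) (e : V ≃ₗ[K] V) (he : ∀ x y, B (e x) (e y) = B x y)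
    (x : V) (hx : x ∉ fixS e) :
    ∃ s : V ≃ₗ[K] V,
      s ∈ Subgroup.closure {t : V ≃ₗ[K] V | ∃ (u : V) (a : K), ∀ x, t x = x + (a * B u x) • u} ∧
      (∀ x y, B (s x) (s y) = B x y) ∧ s (e x) = x ∧ ∀ z ∈ fixS e, s z = z := by
  have hxe : e x ≠ x := hx
  have hsw : ∀ a b, B a b = - B b a := fun a b => (hB.neg_eq b a).symm
  by_cases h1 : B x (e x) = 0
  · -- Case 2
    have hex : e x ∉ fixS e := by
      intro h
      rw [mem_fixS] at h
      exact hxe (e.injective h)
    obtain ⟨w1, hw1, hw1x⟩ := exists_pair_ne B hB hnd (fixS e) x hx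
    obtain ⟨w2, hw2, hw2x⟩ := exists_pair_ne B hB hnd (fixS e) (e x) hex
    have hw : ∃ w, (∀ z ∈ fixS e, B z w = 0) ∧ B x w ≠ 0 ∧ B (e x) w ≠ 0 := by
      by_cases h2 : B (e x) w1 = 0
      · by_cases h3 : B x w2 = 0
        · refine ⟨w1 + w2, ?_, ?_, ?_⟩
          · intro z hz
            rw [map_add, hw1 z hz, hw2 z hz, add_zero]
          · rw [map_add, h3, add_zero]
            exact hw1x
          · rw [map_add, h2, zero_add]
            exact hw2x
        · exact ⟨w2, hw2, h3, hw2x⟩
      · exact ⟨w1, hw1, hw1x, h2⟩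
    obtain ⟨w, hwP, hwx, hwex⟩ := hw
    obtain ⟨t1, ht1, ht1i⟩ := exists_T B hB (x + w - e x) (1 / B (x + w) (e x))
    obtain ⟨t2, ht2, ht2i⟩ := exists_T B hB w (- (1 / B w x))
    have hyex : B (x + w) (e x) ≠ 0 := by
      rw [map_add, LinearMap.add_apply, h1, zero_add, hsw]
      exact neg_ne_zero.mpr hwex
    have hwx' : B w x ≠ 0 := by
      rw [hsw]
      exact neg_ne_zero.mpr hwx
    refine ⟨t2 * t1, ?_, ?_, ?_, ?_⟩
    · exact Subgroup.mul_mem _ (Subgroup.subset_closure ⟨_, _, ht2⟩)
        (Subgroup.subset_closure ⟨_, _, ht1⟩)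
    · intro a b
      rw [LinearEquiv.mul_apply, LinearEquiv.mul_apply, ht2i, ht1i]
    · rw [LinearEquiv.mul_apply]
      have e1 : t1 (e x) = x + w := by
        rw [ht1]
        have : B (x + w - e x) (e x) = B (x + w) (e x) := by
          rw [map_sub, LinearMap.sub_apply, hB (e x), sub_zero]
        rw [this, one_div, inv_mul_cancel₀ hyex, one_smul]
        abel
      rw [e1, ht2]
      have : B w (x + w) = B w x := by
        rw [map_add, hB w, add_zero]
      rw [this, one_div, neg_mul, inv_mul_cancel₀ hwx', neg_smul, one_smul]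
      abel
    · intro z hz
      have hz' : e z = z := hz
      rw [LinearEquiv.mul_apply]
      have e1 : t1 z = z := by
        rw [ht1]
        have : B (x + w - e x) z = 0 := by
          rw [map_sub, map_add, LinearMap.sub_apply, LinearMap.add_apply]
          have h5 : B (e x) z = B x z := by
            conv_lhs => rw [← hz']
            exact he x z
          have h6 : B w z = 0 := by
            rw [hsw, hwP z hz, neg_zero]
          rw [h5, h6]
          ring
        rw [this, mul_zero, zero_smul, add_zero]
      rw [e1, ht2]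
      have h6 : B w z = 0 := by
        rw [hsw, hwP z hz, neg_zero]
      rw [h6, mul_zero, zero_smul, add_zero]
  · -- Case 1
    obtain ⟨t, ht, hti⟩ := exists_T B hB (e x - x) (1 / B x (e x))
    refine ⟨t, Subgroup.subset_closure ⟨_, _, ht⟩, hti, ?_, ?_⟩
    · rw [ht]
      have : B (e x - x) (e x) = - B x (e x) := by
        rw [map_sub, LinearMap.sub_apply, hB (e x), zero_sub]
      rw [this, one_div, mul_neg, inv_mul_cancel₀ h1, neg_smul, one_smul]
      abel
    · intro z hz
      have hz' : e z = z := hz
      rw [ht]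
      have : B (e x - x) z = 0 := by
        rw [map_sub, LinearMap.sub_apply]
        have h5 : B (e x) z = B x z := by
          conv_lhs => rw [← hz']
          exact he x z
        rw [h5, sub_self]
      rw [this, mul_zero, zero_smul, add_zero]

theorem sp_gen_aux [FiniteDimensional K V] (B : LinearMap.BilinForm K V) (hB : B.IsAlt)
    (hnd : B.Nondegenerate) (n : ℕ) :
    ∀ e : V ≃ₗ[K] V, (∀ x y, B (e x) (e y) = B x y) →
      Module.finrank K V - Module.finrank K (fixS e) = n →
      e ∈ Subgroup.closure
        {t : V ≃ₗ[K] V | ∃ (u : V) (a : K), ∀ x, t x = x + (a * B u x) • u} := by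
  induction n using Nat.strong_induction_on with
  | _ n ih =>
    intro e he hn
    by_cases htop : fixS e = ⊤
    · have : e = 1 := by
        ext x
        have : x ∈ fixS e := by rw [htop]; exact Submodule.mem_top
        exact this
      rw [this]
      exact Subgroup.one_mem _
    · obtain ⟨x, hx⟩ : ∃ x, x ∉ fixS e := by
        by_contra hcon
        push Not at hcon
        exact htop (Submodule.eq_top_iff'.mpr hcon)
      obtain ⟨s, hs, hsi, hsx, hsz⟩ := step B hB hnd e he x hx
      have hlt : fixS e < fixS (s * e) := by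
        refine lt_of_le_of_ne ?_ ?_
        · intro z hz
          have hz' : e z = z := hz
          rw [mem_fixS, LinearEquiv.mul_apply, hz']
          exact hsz z hz
        · intro h
          apply hx
          rw [h, mem_fixS, LinearEquiv.mul_apply]
          exact hsx
      have hfr := Submodule.finrank_lt_finrank_of_lt hlt
      have hle : Module.finrank K (fixS (s * e)) ≤ Module.finrank K V := Submodule.finrank_le _
      have hse : s * e ∈ Subgroup.closure
          {t : V ≃ₗ[K] V | ∃ (u : V) (a : K), ∀ x, t x = x + (a * B u x) • u} := by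
        refine ih (Module.finrank K V - Module.finrank K (fixS (s * e))) (by omega) (s * e) ?_ rfl
        intro a b
        rw [LinearEquiv.mul_apply, LinearEquiv.mul_apply, hsi, he]
      have : e = s⁻¹ * (s * e) := by group
      rw [this]
      exact Subgroup.mul_mem _ (Subgroup.inv_mem _ hs) hse

theorem sp_gen {K : Type*} [Field K] {V : Type*} [AddCommGroup V] [Module K V]
    [FiniteDimensional K V] (B : LinearMap.BilinForm K V) (hB : B.IsAlt) (hnd : B.Nondegenerate)
    (e : V ≃ₗ[K] V) (he : ∀ x y, B (e x) (e y) = B x y) :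
    e ∈ Subgroup.closure {t : V ≃ₗ[K] V | ∃ (u : V) (a : K), ∀ x, t x = x + (a * B u x) • u} :=
  sp_gen_aux B hB hnd _ e he rfl

end Cfsg.Agent.Lib.Helper22.SpGen
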