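import Mathlib
import Cfsg.Agent.Lib.Helper4.FCDefs

/-! Project FC (S4146, architect helper4): piece A1A (helper22). -/

namespace Cfsg.Agent.Lib.Helper4.FC

universe u

theorem fc_a1a : KQStmt.{u} → SplitStmt.{u} → A1aStmt.{u} := by
  intro hKQ hSplit G _ _ n m q K Q hfour hq hm hKn hKq hKi hQK
  classical
  obtain ⟨hn1, hm1, hnm, hcs, ⟨g, hg⟩, -, -⟩ := hfour
  obtain ⟨i, hi⟩ := hm
  obtain ⟨hKQbot, hKQtop, -⟩ := hKQ G q K Q hq hKn hKq hKi
  haveI : Fact q.Prime := ⟨hq⟩
  have hqm : q ∣ m := by
    rw [hi]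
    have hi0 : i ≠ 0 := by
      intro h0
      rw [h0, pow_zero] at hi
      omega
    exact dvd_pow_self q hi0
  have hdec : ∀ g : G, ∃ k ∈ K, ∃ y ∈ (Q : Subgroup G), g = k * y := by
    intro g
    have hg : g ∈ K ⊔ (Q : Subgroup G) := by
      rw [hKQtop]
      trivial
    haveI := hKn
    rw [← SetLike.mem_coe, Subgroup.normal_mul] at hg
    obtain ⟨k, hk, y, hy, rfl⟩ := Set.mem_mul.mp hg
    exact ⟨k, hk, y, hy, rfl⟩
  have hQn : (Q : Subgroup G).Normal := by
    constructor
    intro x hx g
    obtain ⟨k, hk, y, hy, rfl⟩ := hdec g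
    have h1 := hQK (y * x * y⁻¹) (mul_mem (mul_mem hy hx) (inv_mem hy)) k hk
    have e : k * y * x * (k * y)⁻¹ = y * x * y⁻¹ := by
      rw [mul_inv_rev]
      calc k * y * x * (y⁻¹ * k⁻¹) = k * (y * x * y⁻¹) * k⁻¹ := by group
        _ = (y * x * y⁻¹) * k * k⁻¹ := by rw [h1]
        _ = y * x * y⁻¹ := by group
    rw [e]
    exact mul_mem (mul_mem hy hx) (inv_mem hy)
  have hcenK : ∀ u : K, Cen u = (Cen (u : G)).subgroupOf K := by
    intro u
    ext v
    simp only [Subgroup.mem_subgroupOf, Subgroup.mem_centralizer_iff, Set.mem_singleton_iff,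
      forall_eq]
    constructor
    · intro h
      exact_mod_cast congrArg Subtype.val h
    · intro h
      exact Subtype.ext (by simpa using h)
  have hcsK : ∀ u : K, cs u = cs (u : G) := by
    intro u
    have h1 := hSplit G (Q : Subgroup G) K (u : G) hQn (by rw [inf_comm]; exact hKQbot)
      (by rw [sup_comm]; exact hKQtop) u.2
    have h2 : (Cen (u : G)).relIndex (Q : Subgroup G) = 1 := by
      rw [Subgroup.relIndex_eq_one]
      intro x hx
      rw [Subgroup.mem_centralizer_iff]
      intro w hw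
      rw [Set.mem_singleton_iff] at hw
      rw [hw]
      exact (hQK x hx u u.2).symm
    rw [h2, one_mul] at h1
    show (Cen u).index = (Cen (u : G)).index
    rw [hcenK u]
    exact h1.symm
  have hpart1 : ∀ u : K, cs u = 1 ∨ cs u = n := by
    intro u
    have hdvd : cs u ∣ Nat.card K := Subgroup.index_dvd_card _
    have hcop : (cs u).Coprime q := Nat.Coprime.coprime_dvd_left hdvd hKq
    have hnq : ¬ q ∣ cs u := by
      intro h
      exact hq.one_lt.ne' (Nat.Coprime.eq_one_of_dvd hcop.symm h)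
    rcases hcs (u : G) with h | h | h | h
    · left
      rw [hcsK u, h]
    · right
      rw [hcsK u, h]
    · exfalso
      apply hnq
      rw [hcsK u, h]
      exact hqm
    · exfalso
      apply hnq
      rw [hcsK u, h]
      exact Dvd.dvd.mul_left hqm n
  refine ⟨hpart1, ?_⟩
  obtain ⟨k, hk, y, hy, rfl⟩ := hdec g
  refine ⟨⟨k, hk⟩, ?_⟩
  rcases hpart1 ⟨k, hk⟩ with h1 | h1
  · exfalso
    have hkc : ∀ v : G, k * v = v * k := by
      intro v
      obtain ⟨k', hk', y', hy', rfl⟩ := hdec v
      have e1 : k * k' = k' * k := by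
        have ht : Cen (⟨k, hk⟩ : K) = ⊤ := Subgroup.index_eq_one.mp h1
        have hmem : (⟨k', hk'⟩ : K) ∈ Cen (⟨k, hk⟩ : K) := by
          rw [ht]
          trivial
        rw [Subgroup.mem_centralizer_iff] at hmem
        have h3 := hmem ⟨k, hk⟩ rfl
        exact congrArg Subtype.val h3
      have e2 : y' * k = k * y' := hQK y' hy' k hk
      calc k * (k' * y') = (k * k') * y' := by rw [mul_assoc]
        _ = k' * k * y' := by rw [e1]
        _ = k' * (k * y') := by rw [mul_assoc]
        _ = k' * (y' * k) := by rw [e2]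
        _ = k' * y' * k := by rw [mul_assoc]
    have hcen : Cen (k * y) = Cen y := by
      ext v
      simp only [Subgroup.mem_centralizer_iff, Set.mem_singleton_iff, forall_eq]
      constructor
      · intro h
        have h3 : k * (y * v) = k * (v * y) := by
          rw [← mul_assoc, h, ← mul_assoc, ← hkc v, mul_assoc]
        exact mul_left_cancel h3
      · intro h
        rw [mul_assoc, h, ← mul_assoc, hkc v, mul_assoc]
    have hcsy : cs (k * y) = cs y := by
      show (Cen (k * y)).index = (Cen y).index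
      rw [hcen]
    rw [hcsy] at hg
    have h2 := hSplit G K (Q : Subgroup G) y hKn hKQbot hKQtop hy
    have h3 : (Cen y).relIndex K = 1 := by
      rw [Subgroup.relIndex_eq_one]
      intro w hw
      rw [Subgroup.mem_centralizer_iff]
      intro z hz
      rw [Set.mem_singleton_iff] at hz
      rw [hz]
      exact hQK y hy w hw
    rw [h3, one_mul, hg] at h2
    have h4 : (Cen y).relIndex (Q : Subgroup G) ∣ Nat.card (Q : Subgroup G) :=
      Subgroup.relIndex_dvd_card _ _
    obtain ⟨e, he⟩ := IsPGroup.iff_card.mp Q.isPGroup'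
    rw [← h2, he] at h4
    obtain ⟨j, -, hj⟩ := (Nat.dvd_prime_pow hq).mp h4
    have hj0 : j ≠ 0 := by
      rintro rfl
      rw [pow_zero] at hj
      omega
    have hqn : q ∣ n := by
      rw [hj]
      exact dvd_pow_self q hj0
    have h5 : q ∣ Nat.gcd n m := Nat.dvd_gcd hqn hqm
    rw [hnm.gcd_eq_one] at h5
    exact hq.one_lt.ne' (Nat.dvd_one.mp h5)
  · exact h1

end Cfsg.Agent.Lib.Helper4.FC
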