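import Mathlib
import Cfsg.Agent.Lib.Helper4.FCDefs

/-! Project FC (S4146, architect helper4): piece A2K2 (helper22). -/

namespace Cfsg.Agent.Lib.Helper4.FC

universe u

theorem a2k2_helper22_index_centralizer_equiv {K K' : Type*} [Group K] [Group K'] (e : K ≃* K')
    (x : K) :
    (Subgroup.centralizer ({e x} : Set K')).index = (Subgroup.centralizer ({x} : Set K)).index := by
  have h : Subgroup.centralizer ({e x} : Set K') =
      (Subgroup.centralizer ({x} : Set K)).map (e : K →* K') := by
    ext y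
    rw [Subgroup.mem_map, Subgroup.mem_centralizer_iff]
    constructor
    · intro h
      refine ⟨e.symm y, ?_, by simp⟩
      rw [Subgroup.mem_centralizer_iff]
      intro z hz
      rw [Set.mem_singleton_iff] at hz
      rw [hz]
      have h1 := h (e x) rfl
      apply e.injective
      rw [map_mul, map_mul, MulEquiv.apply_symm_apply]
      exact h1
    · rintro ⟨w, hw, rfl⟩ z hz
      rw [Set.mem_singleton_iff] at hz
      rw [hz]
      rw [Subgroup.mem_centralizer_iff] at hw
      have h1 := hw x rfl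
      have h2 := congrArg e h1
      rw [map_mul, map_mul] at h2
      exact h2
  rw [h, Subgroup.index_map_equiv]

theorem fc_a2k2 : PrimStmt.{u} → KQStmt.{u} → SplitStmt.{u} → A2K2Stmt.{u} := by
  intro hPrim hKQ hSplit G _ _ n m q K Q hctx
  classical
  obtain ⟨hfour, hq, ⟨i, hi⟩, hKn, hKq, hKi, hcx, ⟨b, hbQ, hbm⟩⟩ := hctx
  by_contra hab
  push_neg at hab
  have hfour' := hfour
  obtain ⟨hn1, hm1, hnm, hcs, ⟨x₀, hx₀⟩, -, -⟩ := hfour
  obtain ⟨hKQbot, hKQtop, hKall⟩ := hKQ G q K Q hq hKn hKq hKi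
  haveI : Fact q.Prime := ⟨hq⟩
  have hqm : q ∣ m := by
    rw [hi]
    have hi0 : i ≠ 0 := by
      intro h0
      rw [h0, pow_zero] at hi
      omega
    exact dvd_pow_self q hi0
  have hnq : ¬ q ∣ n := by
    intro h
    have h5 : q ∣ Nat.gcd n m := Nat.dvd_gcd h hqm
    rw [hnm.gcd_eq_one] at h5
    exact hq.one_lt.ne' (Nat.dvd_one.mp h5)
  obtain ⟨p, a, hp, hpa, han, -⟩ := hPrim G n m x₀ hfour' hx₀
  obtain ⟨k, hk⟩ := hpa
  by_cases hpq : p = q
  · subst hpq
    have hz : IsPGroup p (Subgroup.zpowers a) := by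
      apply IsPGroup.of_card (n := k)
      rw [Nat.card_zpowers, hk]
    obtain ⟨Q', hQ'⟩ := hz.exists_le_sylow
    obtain ⟨c, hc⟩ := MulAction.exists_smul_eq G Q' Q
    have haQ' : a ∈ (Q' : Subgroup G) := hQ' (Subgroup.mem_zpowers a)
    have ha' : c * a * c⁻¹ ∈ (Q : Subgroup G) := by
      rw [← hc, Sylow.coe_subgroup_smul, Subgroup.mem_pointwise_smul_iff_inv_smul_mem]
      have e : (MulAut.conj c)⁻¹ • (c * a * c⁻¹) = a := by
        rw [← map_inv, MulAut.smul_def, MulAut.conj_apply]
        group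
      rw [e]
      exact haQ'
    have hcsa' : cs (c * a * c⁻¹) = n := by
      have h1 := a2k2_helper22_index_centralizer_equiv (MulAut.conj c) a
      rw [MulAut.conj_apply] at h1
      show (Cen (c * a * c⁻¹)).index = n
      rw [← han]
      exact h1
    have h2 := hSplit G K (Q : Subgroup G) (c * a * c⁻¹) hKn hKQbot hKQtop ha'
    rw [hcsa'] at h2
    have h4 : (Cen (c * a * c⁻¹)).relIndex (Q : Subgroup G) ∣ Nat.card (Q : Subgroup G) :=
      Subgroup.relIndex_dvd_card _ _
    obtain ⟨e, he⟩ := IsPGroup.iff_card.mp Q.isPGroup'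
    rw [he] at h4
    obtain ⟨j, -, hj⟩ := (Nat.dvd_prime_pow hq).mp h4
    have hj0 : j = 0 := by
      by_contra hj0
      apply hnq
      rw [h2, hj]
      exact Dvd.dvd.mul_left (dvd_pow_self p hj0) _
    rw [hj0, pow_zero] at hj
    have hQle : (Q : Subgroup G) ≤ Cen (c * a * c⁻¹) := Subgroup.relIndex_eq_one.mp hj
    have hb' : c * a * c⁻¹ ∈ Cen b := by
      have h5 := hQle hbQ
      rw [Subgroup.mem_centralizer_iff] at h5 ⊢
      intro w hw
      rw [Set.mem_singleton_iff] at hw
      rw [hw]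
      exact (h5 (c * a * c⁻¹) rfl).symm
    have hK' := hcx b hbQ hbm (c * a * c⁻¹) ha' hb'
    have hKle : K ≤ Cen (c * a * c⁻¹) := by
      intro w hw
      rw [Subgroup.mem_centralizer_iff]
      intro z hz
      rw [Set.mem_singleton_iff] at hz
      rw [hz]
      exact hK' w hw
    have htop : Cen (c * a * c⁻¹) = ⊤ := by
      rw [eq_top_iff, ← hKQtop]
      exact sup_le hKle hQle
    have h1 : cs (c * a * c⁻¹) = 1 := by
      show (Cen (c * a * c⁻¹)).index = 1
      rw [htop]
      exact Subgroup.index_top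
    omega
  · have hcop : (orderOf a).Coprime q := by
      rw [hk]
      exact Nat.Coprime.pow_left k ((Nat.coprime_primes hp hq).mpr hpq)
    have haK : a ∈ K := hKall a hcop
    have hKle : K ≤ Cen a := by
      intro w hw
      rw [Subgroup.mem_centralizer_iff]
      intro z hz
      rw [Set.mem_singleton_iff] at hz
      rw [hz]
      exact hab a haK w hw
    have h1 : (Cen a).index ∣ K.index := Subgroup.index_dvd_of_le hKle
    obtain ⟨e, he⟩ := hKi
    have han' : (Cen a).index = n := han
    rw [han', he] at h1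
    obtain ⟨j, -, hj⟩ := (Nat.dvd_prime_pow hq).mp h1
    have hj0 : j ≠ 0 := by
      rintro rfl
      rw [pow_zero] at hj
      omega
    apply hnq
    rw [hj]
    exact dvd_pow_self q hj0

end Cfsg.Agent.Lib.Helper4.FC
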