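import Mathlib
import Cfsg.Agent.Lib.Helper4.FCDefs

/-! Project FC (S4146, architect helper4): piece HALLA (helper22). -/

namespace Cfsg.Agent.Lib.Helper4.FC

universe u

theorem fc_halla : MSubStmt.{u} → APStmt.{u} → HallAStmt.{u} := by
  intro hMSub hAP G _ _ n m hfour hmn hyp
  classical
  obtain ⟨M, -, hM⟩ := hMSub G n m hfour hmn
  have hap : ∀ i : {p : ℕ // p.Prime ∧ p ∣ n}, ∃ A : Subgroup G, A.Normal ∧ IsPGroup i.1 A ∧
      (∀ u ∈ A, ∀ v ∈ A, u * v = v * u) ∧ (∀ x ∈ A, cs x = 1 ∨ cs x = m) ∧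
      (∀ x : G, Prim i.1 x → (cs x = 1 ∨ cs x = m) → x ∈ A) :=
    fun i => hAP G n m i.1 hfour hmn i.2.1 i.2.2
  choose Ap hAn hAp hAab hAcs hAall using hap
  haveI : ∀ i, (Ap i).Normal := hAn
  obtain ⟨A, hA⟩ : ∃ A : Subgroup G, A = ⨆ i, Ap i := ⟨_, rfl⟩
  have hle : ∀ i, Ap i ≤ A := fun i => hA ▸ le_iSup Ap i
  have hAnorm : A.Normal := by
    rw [hA]
    infer_instance
  have hcomm_gen : ∀ i j, ∀ u ∈ Ap i, ∀ v ∈ Ap j, u * v = v * u := by
    intro i j u hu v hv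
    by_cases h : i = j
    · subst h
      exact hAab i u hu v hv
    · have hne : i.1 ≠ j.1 := fun e => h (Subtype.ext e)
      haveI : Fact i.1.Prime := ⟨i.2.1⟩
      haveI : Fact j.1.Prime := ⟨j.2.1⟩
      have hd := IsPGroup.disjoint_of_ne i.1 j.1 hne (Ap i) (Ap j) (hAp i) (hAp j)
      exact (Subgroup.commute_of_normal_of_disjoint (Ap i) (Ap j) (hAn i) (hAn j) hd u v hu hv).eq
  have hstep1 : ∀ v ∈ A, ∀ j, ∀ w ∈ Ap j, v * w = w * v := by
    intro v hv
    rw [hA] at hv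
    refine Subgroup.iSup_induction Ap (C := fun v => ∀ j, ∀ w ∈ Ap j, v * w = w * v) hv ?_ ?_ ?_
    · intro i x hx j w hw
      exact hcomm_gen i j x hx w hw
    · intro j w _
      rw [one_mul, mul_one]
    · intro x y hx hy j w hw
      rw [mul_assoc, hy j w hw, ← mul_assoc, hx j w hw, mul_assoc]
  have hAab' : ∀ u ∈ A, ∀ v ∈ A, u * v = v * u := by
    intro u hu
    rw [hA] at hu
    refine Subgroup.iSup_induction Ap (C := fun u => ∀ v ∈ A, u * v = v * u) hu ?_ ?_ ?_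
    · intro i x hx v hv
      exact (hstep1 v hv i x hx).symm
    · intro v _
      rw [one_mul, mul_one]
    · intro x y hx hy v hv
      rw [mul_assoc, hy v hv, ← mul_assoc, hx v hv, mul_assoc]
  have hAM : A ≤ M := by
    rw [hA]
    apply iSup_le
    intro i x hx
    exact (hM x).mpr (hAcs i x hx)
  have h6 : ∀ (p : ℕ) (x : G), p.Prime → p ∣ n → Prim p x → x ∈ A :=
    fun p x hp hpn hx => hle ⟨p, hp, hpn⟩ (hAall ⟨p, hp, hpn⟩ x hx (hyp p x hp hpn hx))
  have hK : ∀ x ∈ A, x ^ (n ^ Nat.card G) = 1 := by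
    intro x hx
    have hx' := hx
    rw [hA] at hx'
    have key : x ∈ A ∧ x ^ (n ^ Nat.card G) = 1 := by
      refine Subgroup.iSup_induction Ap (C := fun x => x ∈ A ∧ x ^ (n ^ Nat.card G) = 1) hx' ?_ ?_ ?_
      · intro i y hy
        refine ⟨hle i hy, ?_⟩
        obtain ⟨k, hk⟩ := hAp i ⟨y, hy⟩
        have hk' : y ^ (i.1 ^ k) = 1 := by
          have := congrArg Subtype.val hk
          simpa using this
        have h1 : orderOf y ∣ i.1 ^ k := orderOf_dvd_of_pow_eq_one hk'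
        obtain ⟨j, -, hj⟩ := (Nat.dvd_prime_pow i.2.1).mp h1
        have h2 : orderOf y ∣ Nat.card G := orderOf_dvd_natCard y
        rw [hj] at h2
        have h3 : i.1 ^ j ≤ Nat.card G := Nat.le_of_dvd Nat.card_pos h2
        have h4 : j < i.1 ^ j := Nat.lt_pow_self i.2.1.one_lt
        have h5 : i.1 ^ j ∣ n ^ Nat.card G :=
          (pow_dvd_pow i.1 (by omega : j ≤ Nat.card G)).trans (pow_dvd_pow_of_dvd i.2.2 _)
        rw [← hj] at h5
        exact orderOf_dvd_iff_pow_eq_one.mp h5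
      · exact ⟨one_mem _, one_pow _⟩
      · rintro y z ⟨hy, hy'⟩ ⟨hz, hz'⟩
        refine ⟨mul_mem hy hz, ?_⟩
        have hc : Commute y z := hAab' y hy z hz
        rw [hc.mul_pow, hy', hz', one_mul]
    exact key.2
  have h5 : ∀ r : ℕ, r.Prime → r ∣ Nat.card A → r ∣ n := by
    intro r hr hrA
    haveI : Fact r.Prime := ⟨hr⟩
    obtain ⟨x, hx⟩ := exists_prime_orderOf_dvd_card' (G := A) r hrA
    have h1 : (x : G) ^ (n ^ Nat.card G) = 1 := hK x x.2
    have h2 : orderOf (x : G) ∣ n ^ Nat.card G := orderOf_dvd_of_pow_eq_one h1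
    rw [Subgroup.orderOf_coe, hx] at h2
    exact hr.dvd_of_dvd_pow h2
  refine ⟨A, hAnorm, hAab', fun y hy => (hM y).mp (hAM hy), ?_, h5, h6⟩
  apply Nat.coprime_of_dvd
  intro r hr hrA hrI
  have hrn := h5 r hr hrA
  haveI : Fact r.Prime := ⟨hr⟩
  obtain ⟨S⟩ : Nonempty (Sylow r G) := inferInstance
  have hSA : (S : Subgroup G) ≤ A := by
    intro x hx
    apply h6 r x hr hrn
    obtain ⟨k, hk⟩ := (IsPGroup.iff_orderOf.mp S.isPGroup') ⟨x, hx⟩
    exact ⟨k, by rw [← hk, Subgroup.orderOf_mk]⟩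
  have h1 : A.index ∣ (S : Subgroup G).index := Subgroup.index_dvd_of_le hSA
  exact S.not_dvd_index (hrI.trans h1)

end Cfsg.Agent.Lib.Helper4.FC
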