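import Cfsg.Agent.Lib.Helper22.GAlg
import Cfsg.Agent.Lib.Helper22.FMT
import Cfsg.Agent.Lib.Helper22.Defect
import Cfsg.Agent.Lib.Helper81.BlockReg
import Cfsg.Agent.S4653
import Cfsg.Agent.S0920

/-!
# Green's theorem on defect groups as Sylow intersections (helper22)

* `exists_coset_sum_unit`: a central idempotent `a` of the local group ring with `a 1 ≠ 0`
  vanishing on the nontrivial elements of a subgroup `R` has a coset `hR` on which the sum of its
  coefficients is a local unit (`e σ_R ≠ 0` modulo the maximal ideal).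
* `exists_unit_conj_inter`: for a `p`-subgroup `R` one then finds `x` with `a x` a unit and
  `R ∩ xRx⁻¹ ≤ C(x)`.
* `green_normal`: the case of a normal defect group.
* `green_theorem`: the general statement.
-/

set_option autoImplicit false

namespace Cfsg.Agent.Lib.Helper22

open Cfsg Cfsg.Agent.Lib.Helper4 Cfsg.Agent.Lib.Helper21
open scoped ComplexConjugate

section CosetSum

variable {N : Type*} [Group N] [Fintype N] {p : ℕ} {M : Ideal AlgInt}

open scoped Classical in
/-- `e σ_R ≠ 0` modulo the maximal ideal, for a central idempotent `e` of the local group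
ring whose coefficients vanish on `R ∖ {1}` and with nonzero coefficient at `1`. -/
theorem exists_coset_sum_unit (hM : IsPModular p M) (a : N → ℂ) (ha : IsClassFunction N a)
    (haa : conv a a = a) (R : Subgroup N)
    (hR : ∀ u : R, u ≠ 1 → a (u : N) = 0) (h1 : a 1 ≠ 0) :
    ∃ h : N, ¬ MemLocalIdeal M (∑ u : R, a (h * (u : N))) := by
  by_contra hcon
  push Not at hcon
  set c : N → ℂ := fun g => ∑ u : R, a (g * (u : N)) with hc
  have hc1 : ∀ (g : N) (v : R), c (g * (v : N)) = c g := by
    intro g v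
    simp only [hc]
    refine Fintype.sum_equiv (Equiv.mulLeft v) _ _ fun u => ?_
    simp [mul_assoc]
  have hc2 : ∀ (g : N) (v : R), c ((v : N) * g) = c g := by
    intro g v
    simp only [hc]
    refine Fintype.sum_equiv (Equiv.mulRight v) _ _ fun u => ?_
    have := ha (g * (u : N) * (v : N)) (v : N)
    simp only [Equiv.coe_mulRight, Subgroup.coe_mul]
    calc a ((v : N) * g * (u : N)) = a ((v : N) * (g * (u : N) * (v : N)) * (v : N)⁻¹) := by
          congr 1
          group
      _ = a (g * (u : N) * (v : N)) := this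
      _ = a (g * ((u : N) * (v : N))) := by rw [mul_assoc]
  have hRc : (Nat.card R : ℂ) ≠ 0 := by
    exact_mod_cast Nat.card_pos.ne'
  have hc3 : ∀ g h : N, ∑ k : N, c (k⁻¹ * g) * c (h⁻¹ * k) = (Nat.card R : ℂ) * c (h⁻¹ * g) := by
    intro g h
    have e1 : ∀ k : N, c (k⁻¹ * g) * c (h⁻¹ * k) =
        ∑ u : R, ∑ v : R, a (h⁻¹ * k * (v : N)) * a (k⁻¹ * g * (u : N)) := by
      intro k
      simp only [hc]
      rw [Finset.sum_mul_sum]
      refine Finset.sum_congr rfl fun u _ => Finset.sum_congr rfl fun v _ => ?_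
      ring
    rw [Finset.sum_congr rfl (fun k _ => e1 k), Finset.sum_comm]
    have e2 : ∀ u : R, ∑ k : N, ∑ v : R, a (h⁻¹ * k * (v : N)) * a (k⁻¹ * g * (u : N)) =
        ∑ v : R, a (h⁻¹ * g * ((u : N) * (v : N))) := by
      intro u
      rw [Finset.sum_comm]
      refine Finset.sum_congr rfl fun v _ => ?_
      have e3 := congrFun haa (h⁻¹ * g * ((u : N) * (v : N)))
      rw [conv_apply] at e3
      rw [← e3]
      refine Fintype.sum_equiv ((Equiv.mulLeft h⁻¹).trans (Equiv.mulRight (v : N))) _ _ fun k => ?_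
      simp only [Equiv.trans_apply, Equiv.coe_mulLeft, Equiv.coe_mulRight]
      congr 1
      have := ha ((v : N)⁻¹ * k⁻¹ * g * (u : N) * (v : N)) (v : N)
      calc a (k⁻¹ * g * (u : N)) =
          a ((v : N) * ((v : N)⁻¹ * k⁻¹ * g * (u : N) * (v : N)) * (v : N)⁻¹) := by
            congr 1
            group
        _ = a ((v : N)⁻¹ * k⁻¹ * g * (u : N) * (v : N)) := this
        _ = a ((h⁻¹ * k * (v : N))⁻¹ * (h⁻¹ * g * ((u : N) * (v : N)))) := by
            congr 1
            group
    rw [Finset.sum_congr rfl (fun u _ => e2 u), Finset.sum_comm]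
    have e4 : ∀ v : R, ∑ u : R, a (h⁻¹ * g * ((u : N) * (v : N))) = c (h⁻¹ * g) := by
      intro v
      simp only [hc]
      refine Fintype.sum_equiv (Equiv.mulRight v) _ _ fun u => ?_
      simp
    rw [Finset.sum_congr rfl (fun v _ => e4 v), Finset.sum_const, Finset.card_univ,
      nsmul_eq_mul, Nat.card_eq_fintype_card]
  obtain ⟨S, hS, h1S⟩ := Subgroup.exists_isComplement_left R (1 : N)
  letI : Fintype S := Fintype.ofFinite S
  have hsum : ∀ F : N → ℂ, (∀ (k : N) (v : R), F (k * (v : N)) = F k) →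
      ∑ k : N, F k = (Nat.card R : ℂ) * ∑ s : S, F (s : N) := by
    intro F hF
    have hbij : Function.Bijective (fun x : S × R => (x.1 : N) * (x.2 : N)) := hS
    have e := Fintype.sum_equiv (Equiv.ofBijective _ hbij)
      (fun x : S × R => F ((x.1 : N) * (x.2 : N))) F (fun x => rfl)
    rw [← e, Fintype.sum_prod_type, Finset.mul_sum]
    refine Finset.sum_congr rfl fun s _ => ?_
    dsimp only
    rw [Finset.sum_congr rfl (fun v _ => hF (s : N) v), Finset.sum_const, Finset.card_univ,
      nsmul_eq_mul, Nat.card_eq_fintype_card]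
  set C : Matrix S S ℂ := Matrix.of (fun s s' => c ((s' : N)⁻¹ * (s : N))) with hC
  have hCC : C * C = C := by
    ext s₁ s₃
    rw [Matrix.mul_apply]
    simp only [hC, Matrix.of_apply]
    have e5 := hc3 (s₁ : N) (s₃ : N)
    rw [hsum (fun k => c (k⁻¹ * (s₁ : N)) * c ((s₃ : N)⁻¹ * k))] at e5
    · exact mul_left_cancel₀ hRc e5
    · intro k v
      have e6 : (k * (v : N))⁻¹ * (s₁ : N) = ((v⁻¹ : R) : N) * (k⁻¹ * (s₁ : N)) := by
        simp only [Subgroup.coe_inv]
        group
      have e7 : (s₃ : N)⁻¹ * (k * (v : N)) = (s₃ : N)⁻¹ * k * (v : N) := by group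
      rw [e6, hc2, e7, hc1]
  have hdet : IsUnit (1 + (-C)).det :=
    (det_one_add_ne_zero hM _ (fun i j => by
      simp only [hC, Matrix.neg_apply, Matrix.of_apply]
      exact locIdeal_neg (hcon _))).isUnit
  have hT := Matrix.mul_nonsing_inv _ hdet
  have hzero : C = 0 := by
    have e8 : C * (1 + (-C)) = 0 := by
      rw [mul_add, mul_one, mul_neg, hCC, add_neg_cancel]
    calc C = C * ((1 + (-C)) * (1 + (-C))⁻¹) := by rw [hT, mul_one]
      _ = (C * (1 + (-C))) * (1 + (-C))⁻¹ := by rw [mul_assoc]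
      _ = 0 := by rw [e8, zero_mul]
  have e9 : c 1 = 0 := by
    have := congrFun (congrFun hzero ⟨1, h1S⟩) ⟨1, h1S⟩
    simpa [hC] using this
  apply h1
  rw [← e9]
  simp only [hc, one_mul]
  rw [Finset.sum_eq_single (1 : R)]
  · simp
  · intro u _ hu
    exact hR u hu
  · intro h
    exact absurd (Finset.mem_univ _) h

end CosetSum

section Orbit

variable {N : Type*} [Group N] [Fintype N] {p : ℕ} {M : Ideal AlgInt}

open scoped Classical in
/-- If the coefficients of a central element of the local group ring have a unit sum on the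
coset `hR` of a `p`-subgroup `R`, then some `x` with unit coefficient has
`R ∩ xRx⁻¹ ≤ C(x)`. -/
theorem exists_unit_conj_inter (hM : IsPModular p M) (a : N → ℂ) (ha : IsClassFunction N a)
    (hl : ∀ g, MemLocalRing M (a g)) (R : Subgroup N) (hR : IsPGroup p R) (h : N)
    (hh : ¬ MemLocalIdeal M (∑ u : R, a (h * (u : N)))) :
    ∃ x : N, ¬ MemLocalIdeal M (a x) ∧ ∀ w ∈ R, x⁻¹ * w * x ∈ R → w * x = x * w := by
  by_contra hcon
  push Not at hcon
  apply hh
  set W : Subgroup N := R ⊓ R.map (MulAut.conj h).toMonoidHom with hW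
  have hWp : IsPGroup p W := hR.to_le inf_le_left
  have hWh : ∀ w : W, h⁻¹ * (w : N) * h ∈ R := fun w => (mem_conj_map_iff R h w).mp w.2.2
  letI : MulAction W R :=
    { smul := fun w u => ⟨h⁻¹ * (w : N) * h * (u : N) * (w : N)⁻¹,
        R.mul_mem (R.mul_mem (hWh w) u.2) (R.inv_mem w.2.1)⟩
      one_smul := fun u => by
        apply Subtype.ext
        show h⁻¹ * ((1 : W) : N) * h * (u : N) * ((1 : W) : N)⁻¹ = u
        simp
      mul_smul := fun w₁ w₂ u => by
        apply Subtype.ext
        show h⁻¹ * ((w₁ * w₂ : W) : N) * h * (u : N) * ((w₁ * w₂ : W) : N)⁻¹ =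
          h⁻¹ * (w₁ : N) * h * (h⁻¹ * (w₂ : N) * h * (u : N) * (w₂ : N)⁻¹) * (w₁ : N)⁻¹
        simp only [Subgroup.coe_mul]
        group }
  have hsmul : ∀ (w : W) (u : R),
      ((w • u : R) : N) = h⁻¹ * (w : N) * h * (u : N) * (w : N)⁻¹ := fun _ _ => rfl
  refine sum_locIdeal_of_pgroup_action hM hWp (fun u : R => a (h * (u : N))) ?_
    (fun u => hl _) ?_
  · intro w u
    show a (h * ((w • u : R) : N)) = a (h * (u : N))
    rw [hsmul]
    have := ha (h * (u : N)) (w : N)
    rw [← this]
    congr 1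
    group
  · intro u hu
    by_contra hnot
    obtain ⟨w, hwR, hwx, hne⟩ := hcon (h * (u : N)) hnot
    apply hne
    have hwW : w ∈ W := by
      refine ⟨hwR, (mem_conj_map_iff R h w).mpr ?_⟩
      have e : h⁻¹ * w * h = (u : N) * ((h * (u : N))⁻¹ * w * (h * (u : N))) * (u : N)⁻¹ := by
        group
      rw [e]
      exact R.mul_mem (R.mul_mem u.2 hwx) (R.inv_mem u.2)
    have hfix := hu ⟨w, hwW⟩
    have h2 := congrArg (Subtype.val) hfix
    rw [hsmul] at h2
    calc w * (h * (u : N)) = h * (h⁻¹ * w * h * (u : N) * w⁻¹) * w := by group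
      _ = h * (u : N) * w := by rw [h2]

/-- Green's theorem for a block with normal defect group `D`: for every `p`-subgroup `R ≥ D`
there is a `p`-regular `x` with `D` a Sylow `p`-subgroup of `C(x)` and `R ∩ xRx⁻¹ ≤ D`. -/
theorem green_normal [Fact p.Prime] (hM : IsPModular p M) (D : Subgroup N) [D.Normal]
    (hDp : IsPGroup p D) (b : Set (IrrCharacter N)) (hb : IsPBlock M b)
    (hDb : IsDefectGroup p M b D) (R : Subgroup N) (hR : IsPGroup p R) (hDR : D ≤ R) :
    ∃ x : N, ¬ p ∣ orderOf x ∧ IsSylowOf p (Subgroup.centralizer ({x} : Set N)) D ∧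
      ∀ w ∈ R, x⁻¹ * w * x ∈ R → w ∈ D := by
  classical
  have hp : p.Prime := Fact.out
  have hsing : ∀ u : R, u ≠ 1 → blockCoeff b (u : N) = 0 := by
    intro u hu
    by_contra hne
    have h1 := pRegular_of_blockCoeff_ne_zero hM b hb (u : N) hne
    obtain ⟨k, hk⟩ := (IsPGroup.iff_orderOf.mp hR) u
    rw [Subgroup.orderOf_coe, hk] at h1
    rcases Nat.eq_zero_or_pos k with h0 | h0
    · rw [h0, pow_zero, orderOf_eq_one_iff] at hk
      exact hu hk
    · exact h1 (dvd_pow_self p h0.ne')
  obtain ⟨χ₀, hχ₀⟩ := hb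
  have hb : IsPBlock M b := ⟨χ₀, hχ₀⟩
  have hχ₀b : χ₀ ∈ b := by
    rw [hχ₀]
    exact Cfsg.Agent.Lib.Helper79.mem_blockOf_self hM χ₀
  have h1 : blockCoeff b 1 ≠ 0 := Cfsg.Agent.Lib.Helper81.blockCoeff_one_ne_zero b χ₀ hχ₀b
  obtain ⟨h, hh⟩ := exists_coset_sum_unit hM (blockCoeff b) (blockCoeff_isClassFunction b)
    (blockCoeff_conv b) R hsing h1
  obtain ⟨x, hx, hxR⟩ := exists_unit_conj_inter hM (blockCoeff b) (blockCoeff_isClassFunction b)
    (osima hM b hb) R hR h hh
  have hx0 : blockCoeff b x ≠ 0 := fun h0 => hx (h0 ▸ locIdeal_zero hM)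
  have hxC : x ∈ Subgroup.centralizer (D : Set N) := by
    by_contra hnot
    exact hx0 (Cfsg.Agent.S4653.result p M hM D hDp b hb x hnot)
  have hDle : D ≤ Subgroup.centralizer ({x} : Set N) := (le_centralizer_singleton_iff D x).mpr hxC
  obtain ⟨Q, hQ, hDQ⟩ := exists_isSylowOf_ge hDp hDle
  obtain ⟨t, ht⟩ := subConj_defectGroup_of_coeff_unit hM b hb D hDb x hx Q hQ.isPGroup hQ.le
  rw [map_conj_eq_of_normal D t] at ht
  have hQD : Q = D := le_antisymm ht hDQ
  rw [hQD] at hQ
  refine ⟨x, pRegular_of_blockCoeff_ne_zero hM b hb x hx0, hQ, ?_⟩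
  intro w hw hwx
  have hcomm := hxR w hw hwx
  set Q' : Subgroup N := D ⊔ Subgroup.zpowers w with hQ'
  have hQ'R : Q' ≤ R := sup_le hDR ((Subgroup.zpowers_le).mpr hw)
  have hQ'p : IsPGroup p Q' := hR.to_le hQ'R
  have hwC : w ∈ Subgroup.centralizer ({x} : Set N) := by
    rw [mem_centralizer_singleton_iff']
    exact hcomm.symm
  have hQ'C : Q' ≤ Subgroup.centralizer ({x} : Set N) :=
    sup_le hDle ((Subgroup.zpowers_le).mpr hwC)
  have heq := eq_of_isSylowOf_of_le hQ hQ'p hQ'C le_sup_left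
  rw [heq]
  exact (le_sup_right : Subgroup.zpowers w ≤ Q') (Subgroup.mem_zpowers w)

end Orbit

section General

variable {G : Type*} [Group G] [Finite G] {p : ℕ} [Fact p.Prime] {M : Ideal AlgInt}

/-- **Green's theorem**: a defect group `D` of a block, contained in the Sylow `p`-subgroup `P`,
is a Sylow `p`-subgroup of the centralizer of some `p`-regular `x` with `P ∩ xPx⁻¹ = D`. -/
theorem green_theorem (hM : IsPModular p M) (B : Set (IrrCharacter G)) (hB : IsPBlock M B)
    (D : Subgroup G) (hD : IsDefectGroup p M B D) (P : Sylow p G) (hDP : D ≤ P) :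
    ∃ x : G, ¬ p ∣ orderOf x ∧ IsSylowOf p (Subgroup.centralizer ({x} : Set G)) D ∧
      (P : Subgroup G) ⊓ (P : Subgroup G).map (MulAut.conj x).toMonoidHom = D := by
  classical
  letI : Fintype G := Fintype.ofFinite G
  have hDp : IsPGroup p D := isDefectGroup_isPGroup B D hD
  letI : Fintype (Subgroup.normalizer (D : Set G)) := Fintype.ofFinite _
  obtain ⟨b, ⟨hb, hDb, -⟩, -⟩ := (Cfsg.Agent.S0920.result p M hM D hDp).2 B hB hD
  haveI : (D.subgroupOf (Subgroup.normalizer (D : Set G))).Normal := Subgroup.normal_in_normalizer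
  have hD'p : IsPGroup p (D.subgroupOf (Subgroup.normalizer (D : Set G))) := hDp.comap_subtype
  set R : Subgroup (Subgroup.normalizer (D : Set G)) :=
    (P : Subgroup G).subgroupOf (Subgroup.normalizer (D : Set G)) with hRdef
  have hRp : IsPGroup p R := P.isPGroup'.comap_subtype
  have hD'R : D.subgroupOf (Subgroup.normalizer (D : Set G)) ≤ R := by
    intro z hz
    exact hDP hz
  obtain ⟨y, hy1, hy2, hy3⟩ := green_normal hM _ hD'p b hb hDb R hRp hD'R
  have hSyl := isSylowOf_centralizer_of_normalizer D hDp y hy2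
  have hxC : ∀ d ∈ D, (y : G)⁻¹ * d * (y : G) = d := by
    intro d hd
    have := (mem_centralizer_singleton_iff' (y : G) d).mp (hSyl.le hd)
    rw [mul_assoc, ← this, inv_mul_cancel_left]
  refine ⟨(y : G), ?_, hSyl, le_antisymm ?_ ?_⟩
  · rwa [Subgroup.orderOf_coe]
  · by_contra hnot
    set T : Subgroup G := (P : Subgroup G) ⊓ (P : Subgroup G).map (MulAut.conj (y : G)).toMonoidHom
      with hT
    have hDT : D ≤ T := by
      intro d hd
      refine ⟨hDP hd, (mem_conj_map_iff _ _ _).mpr ?_⟩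
      rw [hxC d hd]
      exact hDP hd
    have hTp : IsPGroup p T := P.isPGroup'.to_le inf_le_left
    haveI : Group.IsNilpotent T := hTp.isNilpotent
    have hlt : D.subgroupOf T < ⊤ := by
      rw [lt_top_iff_ne_top]
      intro htop
      apply hnot
      intro z hz
      have : (⟨z, hz⟩ : T) ∈ D.subgroupOf T := by
        rw [htop]
        exact Subgroup.mem_top _
      exact this
    have hnc := normalizerCondition_of_isNilpotent (G := T) (D.subgroupOf T) hlt
    obtain ⟨t, htN, htD⟩ := SetLike.exists_of_lt hnc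
    have htn : ∀ d ∈ D, (t : G) * d * (t : G)⁻¹ ∈ D := by
      intro d hd
      have := (Subgroup.mem_normalizer_iff.mp htN ⟨d, hDT hd⟩).mp hd
      exact this
    have htn' : ∀ d ∈ D, (t : G)⁻¹ * d * (t : G) ∈ D := by
      intro d hd
      have hinv : t⁻¹ ∈ Subgroup.normalizer ((D.subgroupOf T : Subgroup T) : Set T) :=
        Subgroup.inv_mem _ htN
      have := (Subgroup.mem_normalizer_iff.mp hinv ⟨d, hDT hd⟩).mp hd
      rw [inv_inv] at this
      exact this
    have htNG : (t : G) ∈ Subgroup.normalizer (D : Set G) := by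
      rw [Subgroup.mem_normalizer_iff]
      intro g
      constructor
      · exact htn g
      · intro hg
        have := htn' _ hg
        have e : (t : G)⁻¹ * ((t : G) * g * (t : G)⁻¹) * (t : G) = g := by group
        rwa [e] at this
    have htR : (⟨(t : G), htNG⟩ : Subgroup.normalizer (D : Set G)) ∈ R := t.2.1
    have htR' : y⁻¹ * (⟨(t : G), htNG⟩ : Subgroup.normalizer (D : Set G)) * y ∈ R := by
      show (y : G)⁻¹ * (t : G) * (y : G) ∈ (P : Subgroup G)
      exact (mem_conj_map_iff _ _ _).mp t.2.2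
    have := hy3 _ htR htR'
    exact htD this
  · intro d hd
    refine ⟨hDP hd, (mem_conj_map_iff _ _ _).mpr ?_⟩
    rw [hxC d hd]
    exact hDP hd

end General

end Cfsg.Agent.Lib.Helper22
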