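import Mathlib
import Cfsg.Agent.Lib.Helper22.QuatA
import Cfsg.Agent.Lib.Helper5.BsqG
import Cfsg.Agent.S0071
import Cfsg.Agent.S4571
import Cfsg.Agent.S4512

/-!
# The principal `2`-block of a group with quaternion Sylow `2`-subgroup of order `8` (helper22)

`q8_principal_card`: if a Sylow `2`-subgroup `S` of `G` is quaternion of order `8`, `O(G) = 1`
and `G ≠ S`, then the principal `2`-block of `G` has exactly `7` irreducible characters.

By Brauer–Suzuki the involution `t` of `S` is central; as `G` has no normal `2`-complement, the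
six elements of order `4` of `S` are conjugate (Frobenius), so `1`, `t`, `u` represent the
classes of `2`-elements.  Brauer's count by subsections and the third main theorem give
`k(B₀) = 2 l(B₀(G)) + l(B₀(C_G(u)))`; the last term is `1` (normal `2`-complement) and
`l(B₀(G)) = l(B₀(G/⟨t⟩)) = 3` (Klein four Sylow subgroup, one class of involutions).
-/

set_option autoImplicit false

namespace Cfsg.Agent.Lib.Helper22

open Cfsg Cfsg.Agent.Lib.Helper5 QuaternionGroup
open scoped Pointwise

section Quat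

variable {G : Type*} [Group G] [Finite G]

theorem three_inj {α : Type*} (a b c : α) (f : α → ℕ) (ha : f a = 1) (hb : f b = 2)
    (hc : f c = 4) : ∀ x x' : α, (x = a ∨ x = b ∨ x = c) → (x' = a ∨ x' = b ∨ x' = c) →
      f x = f x' → x = x' := by
  rintro x x' (rfl | rfl | rfl) (rfl | rfl | rfl) h <;> first | rfl | (exfalso; omega)

/-- Central elements of a group with `Q₈` Sylow subgroup and no odd normal subgroups. -/
theorem q8_center_cases (S : Sylow 2 G) {j : QuaternionGroup 2 →* G}
    (hj : Q8Emb (S : Subgroup G) j)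
    (hO : ∀ N : Subgroup G, N.Normal → Odd (Nat.card N) → N = ⊥) :
    ∀ x ∈ Subgroup.center G, x = 1 ∨ x = j (a 2) := by
  intro x hx
  obtain ⟨k, hk⟩ := Cfsg.Agent.Lib.Helper20.orderOf_two_pow_of x (by
    intro k hodd
    have hy : x ^ k ∈ Subgroup.center G := Subgroup.pow_mem _ hx k
    have hn : (Subgroup.zpowers (x ^ k)).Normal := by
      constructor
      intro w hw g
      have hwc : w ∈ Subgroup.center G := (Subgroup.zpowers_le.mpr hy) hw
      have h : g * w * g⁻¹ = w := by
        rw [Subgroup.mem_center_iff.mp hwc g, mul_inv_cancel_right]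
      rw [h]
      exact hw
    have h1 := hO _ hn (by rw [Nat.card_zpowers]; exact hodd)
    exact Subgroup.zpowers_eq_bot.mp h1)
  have hxS := Cfsg.Agent.Lib.Helper20.mem_sylow_of_center S x hx k hk
  exact emb_center hj hxS (fun v _ => (Subgroup.mem_center_iff.mp hx v).symm)

/-- Every `2`-element is conjugate to an element of the Sylow subgroup. -/
theorem exists_conj_mem_sylow (S : Sylow 2 G) (g : G) (hg : ∃ k : ℕ, orderOf g = 2 ^ k) :
    ∃ w ∈ (S : Subgroup G), IsConj g w := by
  haveI : Fact (Nat.Prime 2) := ⟨Nat.prime_two⟩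
  obtain ⟨k, hk⟩ := hg
  have hp : IsPGroup 2 (Subgroup.zpowers g) := by
    apply IsPGroup.of_card (n := k)
    rw [Nat.card_zpowers, hk]
  obtain ⟨S', hS'⟩ := hp.exists_le_sylow
  obtain ⟨h, rfl⟩ := MulAction.exists_smul_eq G S S'
  have hgS : g ∈ ((h • S : Sylow 2 G) : Subgroup G) := hS' (Subgroup.mem_zpowers g)
  rw [Sylow.coe_subgroup_smul, Subgroup.mem_pointwise_smul_iff_inv_smul_mem] at hgS
  refine ⟨(MulAut.conj h)⁻¹ • g, hgS, ?_⟩
  rw [isConj_iff]
  refine ⟨h⁻¹, ?_⟩
  simp [MulAut.smul_def]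

theorem orderOf_eq_of_isConj {x y : G} (h : IsConj x y) : orderOf x = orderOf y := by
  obtain ⟨c, rfl⟩ := isConj_iff.mp h
  exact ((MulAut.conj c).orderOf_eq x).symm

theorem q8_principal_card {M : Ideal AlgInt} (hM : IsPModular 2 M) (S : Sylow 2 G)
    (e : (S : Subgroup G) ≃* QuaternionGroup 2)
    (hO : ∀ N : Subgroup G, N.Normal → Odd (Nat.card N) → N = ⊥)
    (hG : (S : Subgroup G) ≠ ⊤) : Nat.card (principalBlock M G) = 7 := by
  classical
  haveI : Fact (Nat.Prime 2) := ⟨Nat.prime_two⟩
  have hj := q8emb_of_equiv (S : Subgroup G) e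
  obtain ⟨j, hjdef⟩ : ∃ j : QuaternionGroup 2 →* G,
      j = (S : Subgroup G).subtype.comp e.symm.toMonoidHom := ⟨_, rfl⟩
  rw [← hjdef] at hj
  -- the involution and an element of order four
  have htS : j (a 2) ∈ (S : Subgroup G) := emb_mem hj _
  have huS : j (a 1) ∈ (S : Subgroup G) := emb_mem hj _
  have huu : j (a 1) * j (a 1) ≠ 1 := by
    rw [← map_mul]
    intro h
    have h1 : (a 1 : QuaternionGroup 2) * a 1 = 1 := hj.1 (h.trans (map_one j).symm)
    revert h1
    decide
  have ht1 : j (a 2) ≠ 1 := emb_t_ne hj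
  have hot : orderOf (j (a 2)) = 2 := emb_t_order hj
  have hou : orderOf (j (a 1)) = 4 := by
    have h1 : ¬ (j (a 1)) ^ 2 ^ 1 = 1 := by
      rw [pow_one, pow_two]; exact huu
    have h2 : (j (a 1)) ^ 2 ^ (1 + 1) = 1 := by
      have e4 : (2 : ℕ) ^ (1 + 1) = 2 + 2 := by norm_num
      rw [e4, pow_add, pow_two]
      exact emb_pow4 hj huS
    exact orderOf_eq_prime_pow h1 h2
  -- the centre
  have hZ : Nat.card (Subgroup.center G) = 2 := bs_q8 S e hO
  have hcases := q8_center_cases S hj hO
  have ht : j (a 2) ∈ Subgroup.center G := by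
    have hnt : Nontrivial (Subgroup.center G) := by
      rw [← Finite.one_lt_card_iff_nontrivial, hZ]; norm_num
    obtain ⟨z, hz⟩ := exists_ne (1 : Subgroup.center G)
    rcases hcases (z : G) z.2 with h | h
    · exact absurd (Subtype.ext h) hz
    · rw [← h]; exact z.2
  -- fusion of the elements of order four
  have hfus : ∀ v w : G, v ∈ (S : Subgroup G) → w ∈ (S : Subgroup G) → v * v ≠ 1 →
      w * w ≠ 1 → IsConj v w := by
    by_cases hfr : ∀ Q : Subgroup G, Q ≤ (S : Subgroup G) →
        ∀ g ∈ Subgroup.normalizer (Q : Set G), Nat.Coprime (orderOf g) 2 →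
        g ∈ Subgroup.centralizer (Q : Set G)
    · exfalso
      obtain ⟨N, hN, hc⟩ := (Cfsg.Agent.S0071.result S).mpr hfr
      have h1 : (S : Subgroup G).index = Nat.card N := hc.index_eq_card
      have h2 : ¬ 2 ∣ Nat.card N := by
        rw [← h1]; exact S.not_dvd_index
      have h3 : N = ⊥ :=
        hO N hN (Nat.not_even_iff_odd.mp (fun h => h2 (even_iff_two_dvd.mp h)))
      rw [h3] at hc
      exact hG (Subgroup.isComplement'_bot_left.mp hc)
    · push Not at hfr
      obtain ⟨Q', hQ', g, hg, hodd, hgc⟩ := hfr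
      exact bs_fusion hj Q' hQ' g hg hodd hgc
  -- representatives of the classes of `2`-elements
  have hXinj := three_inj (1 : G) (j (a 2)) (j (a 1)) orderOf orderOf_one hot hou
  obtain ⟨X, hXdef⟩ : ∃ X : Finset G, X = insert (1 : G) (insert (j (a 2)) {j (a 1)}) :=
    ⟨_, rfl⟩
  have hXmem : ∀ x : G, x ∈ X ↔ x = 1 ∨ x = j (a 2) ∨ x = j (a 1) := by
    intro x
    rw [hXdef, Finset.mem_insert, Finset.mem_insert, Finset.mem_singleton]
  have hX : ∀ x ∈ X, ∃ k : ℕ, orderOf x = 2 ^ k := by
    intro x hx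
    rcases (hXmem x).mp hx with rfl | rfl | rfl
    · exact ⟨0, by rw [orderOf_one, pow_zero]⟩
    · exact ⟨1, by rw [hot, pow_one]⟩
    · exact ⟨2, by rw [hou]; norm_num⟩
  have hXrep : ∀ g : G, (∃ k : ℕ, orderOf g = 2 ^ k) → ∃! x, x ∈ X ∧ IsConj g x := by
    intro g hg
    obtain ⟨w, hwS, hgw⟩ := exists_conj_mem_sylow S g hg
    have hex : ∃ x, x ∈ X ∧ IsConj g x := by
      by_cases hw : w * w = 1
      · rcases emb_invol hj hwS hw with h | h
        · exact ⟨1, (hXmem 1).mpr (Or.inl rfl), h ▸ hgw⟩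
        · exact ⟨j (a 2), (hXmem _).mpr (Or.inr (Or.inl rfl)), h ▸ hgw⟩
      · exact ⟨j (a 1), (hXmem _).mpr (Or.inr (Or.inr rfl)),
          hgw.trans (hfus w (j (a 1)) hwS huS hw huu)⟩
    obtain ⟨x, hxX, hgx⟩ := hex
    refine ⟨x, ⟨hxX, hgx⟩, ?_⟩
    rintro y ⟨hyX, hgy⟩
    exact hXinj y x ((hXmem y).mp hyX) ((hXmem x).mp hxX)
      ((orderOf_eq_of_isConj hgy).symm.trans (orderOf_eq_of_isConj hgx))
  -- the quotient by the centre
  have hQ : IsPGroup 2 (Subgroup.center G) := by
    apply IsPGroup.of_card (n := 1)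
    rw [hZ, pow_one]
  have hsup : Subgroup.center G ⊔ Subgroup.centralizer ((Subgroup.center G : Subgroup G) : Set G)
      = ⊤ := by
    rw [Subgroup.centralizer_eq_top_iff_subset.mpr (le_refl _), sup_top_eq]
  have hmk : Function.Surjective (QuotientGroup.mk' (Subgroup.center G)) :=
    QuotientGroup.mk'_surjective _
  have hP : Nat.card (S.mapSurjective hmk) = 4 := by
    have h1 := (S.mapSurjective hmk).card_eq_multiplicity
    have h2 := S.card_eq_multiplicity
    have h3 : Nat.card (S : Subgroup G) = 8 := emb_card hj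
    have h4 : Nat.card G = Nat.card (G ⧸ Subgroup.center G) * 2 := by
      rw [← hZ]; exact Subgroup.card_eq_card_quotient_mul_card_subgroup _
    have h5 : (Nat.card G).factorization 2 = 3 := by
      have h6 : (2 : ℕ) ^ (Nat.card G).factorization 2 = 2 ^ 3 := by
        rw [← h2]; exact h3
      exact Nat.pow_right_injective (le_refl 2) h6
    have h7 : (Nat.card (G ⧸ Subgroup.center G)).factorization 2 = 2 := by
      rw [h4, Nat.factorization_mul Nat.card_pos.ne' (by norm_num), Finsupp.add_apply,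
        Nat.prime_two.factorization_self] at h5
      omega
    rw [h7] at h1
    exact h1
  have hexp : ∀ x : (S.mapSurjective hmk), x * x = 1 := by
    intro x
    have hx : (x : G ⧸ Subgroup.center G) ∈ (S : Subgroup G).map
        (QuotientGroup.mk' (Subgroup.center G)) := by
      have := x.2
      rwa [← Sylow.coe_mapSurjective]
    obtain ⟨s, hs, hsx⟩ := hx
    apply Subtype.ext
    show (x : G ⧸ Subgroup.center G) * x = 1
    rw [← hsx, ← map_mul]
    show ((s * s : G) : G ⧸ Subgroup.center G) = 1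
    rw [QuotientGroup.eq_one_iff]
    by_cases hss : s * s = 1
    · rw [hss]; exact one_mem _
    · rw [emb_sq hj hs hss]; exact ht
  have hinv : ∀ c : G ⧸ Subgroup.center G, orderOf c = 2 →
      ∃ w ∈ (S : Subgroup G), w * w ≠ 1 ∧
        IsConj c (QuotientGroup.mk' (Subgroup.center G) w) := by
    intro c hc
    obtain ⟨g, rfl⟩ := hmk c
    have hc1 : QuotientGroup.mk' (Subgroup.center G) g ≠ 1 := by
      intro h
      rw [h, orderOf_one] at hc
      norm_num at hc
    have hc2 : QuotientGroup.mk' (Subgroup.center G) g *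
        QuotientGroup.mk' (Subgroup.center G) g = 1 := by
      rw [← pow_two, ← hc]; exact pow_orderOf_eq_one _
    have hgZ : g ∉ Subgroup.center G := by
      intro h
      exact hc1 ((QuotientGroup.eq_one_iff g).mpr h)
    have hggZ : g * g ∈ Subgroup.center G := by
      rw [← map_mul] at hc2
      exact (QuotientGroup.eq_one_iff (g * g)).mp hc2
    have hg4 : g ^ 2 ^ 2 = 1 := by
      have e4 : (2 : ℕ) ^ 2 = 2 + 2 := by norm_num
      rw [e4, pow_add, pow_two]
      rcases hcases (g * g) hggZ with h | h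
      · rw [h, one_mul]
      · rw [h]; exact emb_t_sq j
    obtain ⟨k, -, hk⟩ := (Nat.dvd_prime_pow Nat.prime_two).mp (orderOf_dvd_of_pow_eq_one hg4)
    obtain ⟨w, hwS, hgw⟩ := exists_conj_mem_sylow S g ⟨k, hk⟩
    have hwZ : w ∉ Subgroup.center G := by
      intro h
      obtain ⟨c, hc⟩ := isConj_iff.mp hgw
      have h1 : g = c⁻¹ * w * c := by rw [← hc]; group
      have h2 : c⁻¹ * w * c = w := by
        rw [mul_assoc, ← Subgroup.mem_center_iff.mp h c, ← mul_assoc, inv_mul_cancel, one_mul]
      rw [h2] at h1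
      exact hgZ (h1 ▸ h)
    refine ⟨w, hwS, ?_, (QuotientGroup.mk' (Subgroup.center G)).map_isConj hgw⟩
    intro hww
    rcases emb_invol hj hwS hww with h | h
    · exact hwZ (h ▸ one_mem _)
    · exact hwZ (h ▸ ht)
  have hone : ∀ c d : G ⧸ Subgroup.center G, orderOf c = 2 → orderOf d = 2 → IsConj c d := by
    intro c d hc hd
    obtain ⟨w, hwS, hww, hcw⟩ := hinv c hc
    obtain ⟨w', hwS', hww', hdw⟩ := hinv d hd
    exact (hcw.trans ((QuotientGroup.mk' (Subgroup.center G)).map_isConj
      (hfus w w' hwS hwS' hww hww'))).trans hdw.symm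
  have hl : blockRank 2 (principalBlock M G) = 3 := by
    rw [Cfsg.Agent.S4571.result 2 M hM (Subgroup.center G) hQ hsup]
    exact Cfsg.Agent.S4512.result M hM (S.mapSurjective hmk) hP hexp hone
  -- Brauer's count
  have hcount := Cfsg.Agent.S4511.result 2 M hM (principalBlock M G)
    (Cfsg.Agent.Lib.Helper79.isPBlock_principalBlock (M := M)) X hX hXrep
  rw [hcount, Finset.sum_congr rfl (fun x hx => finsum_induced_principal hM x (hX x hx))]
  have hn1 : (1 : G) ∉ insert (j (a 2)) ({j (a 1)} : Finset G) := by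
    rw [Finset.mem_insert, Finset.mem_singleton]
    rintro (h | h)
    · exact ht1 h.symm
    · rw [← h, orderOf_one] at hou; norm_num at hou
  have hn2 : j (a 2) ∉ ({j (a 1)} : Finset G) := by
    rw [Finset.mem_singleton]
    intro h
    rw [← h, hot] at hou; norm_num at hou
  rw [hXdef, Finset.sum_insert hn1, Finset.sum_insert hn2, Finset.sum_singleton]
  have e1 : blockRank 2 (principalBlock M ↥(Subgroup.centralizer ({(1 : G)} : Set G))) = 3 := by
    rw [blockRank_principal_of_eq_top 2 M _ (Subgroup.centralizer_eq_top_iff_subset.mpr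
      (Set.singleton_subset_iff.mpr (one_mem _)))]
    exact hl
  have e2 : blockRank 2 (principalBlock M ↥(Subgroup.centralizer ({j (a 2)} : Set G))) = 3 := by
    rw [blockRank_principal_of_eq_top 2 M _ (Subgroup.centralizer_eq_top_iff_subset.mpr
      (Set.singleton_subset_iff.mpr ht))]
    exact hl
  have e3 : blockRank 2 (principalBlock M ↥(Subgroup.centralizer ({j (a 1)} : Set G))) = 1 :=
    blockRank_principal_of_index_pPrimeCore hM 2 (bs_cent_index S hj huS huu)
  rw [e1, e2, e3]
  rfl

end Quat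

end Cfsg.Agent.Lib.Helper22
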