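import Mathlib
import Cfsg.Agent.Lib.Helper22.WeakOrth
import Cfsg.Agent.Lib.Helper22.GAlg
import Cfsg.Agent.Lib.Helper22.ClassSum
import Cfsg.Agent.Lib.Helper4.CharExp2
import Cfsg.Agent.Lib.Helper82.CharCore

/-!
# Determinants modulo the local ideal and a class-constant identity (helper22)

* `prod_sub_locIdeal`, `det_sub_locIdeal`: products and determinants of local integers depend
  only on the residues modulo the local ideal;
* `det_mul_expand`: the multilinear expansion of `det (Ω * Y)` for rectangular `Ω`, `Y`;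
* `sum_pairs_eq_one`: the number of pairs `(s, t)` with `a^s b^t c = 1` in terms of characters;
* `sylow_sum_identity`: the same summed over a Sylow `p`-subgroup.
-/

set_option autoImplicit false

namespace Cfsg.Agent.Lib.Helper22

open Cfsg Cfsg.Agent.Lib.Helper4 Cfsg.Agent.Lib.Helper21
open scoped ComplexConjugate

section Det

variable {p : ℕ} {M : Ideal AlgInt}

theorem prod_sub_locIdeal (hM : IsPModular p M) {ι : Type*} (s : Finset ι) (f g : ι → ℂ)
    (hf : ∀ i ∈ s, MemLocalRing M (f i)) (hg : ∀ i ∈ s, MemLocalRing M (g i))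
    (h : ∀ i ∈ s, MemLocalIdeal M (f i - g i)) :
    MemLocalIdeal M (∏ i ∈ s, f i - ∏ i ∈ s, g i) := by
  classical
  induction s using Finset.induction_on with
  | empty => simpa using locIdeal_zero hM
  | insert a s ha ih =>
    rw [Finset.prod_insert ha, Finset.prod_insert ha]
    have h1 := ih (fun i hi => hf i (Finset.mem_insert_of_mem hi))
      (fun i hi => hg i (Finset.mem_insert_of_mem hi))
      (fun i hi => h i (Finset.mem_insert_of_mem hi))
    have h2 := locIdeal_mul_left hM (hf a (Finset.mem_insert_self a s)) h1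
    have h3 := locIdeal_mul_right hM (h a (Finset.mem_insert_self a s))
      (locRing_prod hM s g fun i hi => hg i (Finset.mem_insert_of_mem hi))
    have h4 := locIdeal_add hM h2 h3
    have e : f a * (∏ i ∈ s, f i - ∏ i ∈ s, g i) + (f a - g a) * ∏ i ∈ s, g i =
        f a * ∏ i ∈ s, f i - g a * ∏ i ∈ s, g i := by ring
    rwa [e] at h4

theorem det_sub_locIdeal (hM : IsPModular p M) {n : Type*} [Fintype n] [DecidableEq n]
    (A A' : Matrix n n ℂ) (hA : ∀ i j, MemLocalRing M (A i j))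
    (hA' : ∀ i j, MemLocalRing M (A' i j)) (h : ∀ i j, MemLocalIdeal M (A i j - A' i j)) :
    MemLocalIdeal M (A.det - A'.det) := by
  rw [Matrix.det_apply, Matrix.det_apply, ← Finset.sum_sub_distrib]
  refine locIdeal_sum hM _ _ fun σ _ => ?_
  rw [← smul_sub, Units.smul_def, zsmul_eq_mul]
  exact locIdeal_mul_left hM (locRing_intCast hM _)
    (prod_sub_locIdeal hM _ _ _ (fun i _ => hA _ _) (fun i _ => hA' _ _) (fun i _ => h _ _))

theorem det_mul_expand {n m : Type*} [Fintype n] [DecidableEq n] [Fintype m] [DecidableEq m]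
    (Ω : Matrix n m ℂ) (Y : Matrix m n ℂ) :
    (Ω * Y).det = ∑ f : n → m, (∏ j, Y (f j) j) * (Matrix.of fun i j => Ω i (f j)).det := by
  have h1 : (Ω * Y).transpose = Matrix.of (fun j => ∑ B, Y B j • (fun i => Ω i B)) := by
    ext j i
    simp [Matrix.mul_apply, mul_comm]
  rw [← Matrix.det_transpose, h1]
  have h2 : (Matrix.of (fun j => ∑ B, Y B j • (fun i => Ω i B))).det =
      (Matrix.detRowAlternating (n := n) (R := ℂ)).toMultilinearMap
        (fun j => ∑ B, Y B j • (fun i => Ω i B)) := rfl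
  rw [h2, MultilinearMap.map_sum]
  refine Finset.sum_congr rfl fun f _ => ?_
  rw [MultilinearMap.map_smul_univ]
  have h3 : (Matrix.detRowAlternating (n := n) (R := ℂ)).toMultilinearMap
      (fun j => fun i => Ω i (f j)) = (Matrix.of fun i j => Ω i (f j)).transpose.det := rfl
  rw [h3, Matrix.det_transpose, smul_eq_mul]

end Det

section Count

variable {G : Type*} [Group G] [Fintype G]

theorem irr_sum_conj_conj_mul (χ : IrrCharacter G) (a b c : G) :
    ∑ s : G, ∑ t : G, (χ : G → ℂ) (s * a * s⁻¹ * (t * b * t⁻¹ * c)) =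
      (Nat.card G : ℂ) ^ 2 * (χ : G → ℂ) a * (χ : G → ℂ) b * (χ : G → ℂ) c /
        (χ : G → ℂ) 1 ^ 2 := by
  have h0 : (χ : G → ℂ) 1 ≠ 0 := irr_one_ne_zero χ
  rw [Finset.sum_comm]
  have h1 : ∀ t : G, ∑ s : G, (χ : G → ℂ) (s * a * s⁻¹ * (t * b * t⁻¹ * c)) =
      (Nat.card G : ℂ) * (χ : G → ℂ) a * (χ : G → ℂ) (t * b * t⁻¹ * c) / (χ : G → ℂ) 1 :=
    fun t => irr_sum_conj_mul χ a _
  rw [Finset.sum_congr rfl (fun t _ => h1 t), ← Finset.sum_div, ← Finset.mul_sum,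
    irr_sum_conj_mul χ b c]
  field_simp

variable [Fintype (IrrCharacter G)]

open scoped Classical in
theorem sum_pairs_eq_one (a b c : G) :
    ∑ s : G, ∑ t : G, (if s * a * s⁻¹ * (t * b * t⁻¹ * c) = 1 then (1 : ℂ) else 0) =
      (Nat.card G : ℂ) * ∑ χ : IrrCharacter G,
        (χ : G → ℂ) a * (χ : G → ℂ) b * (χ : G → ℂ) c / (χ : G → ℂ) 1 := by
  have hG : (Nat.card G : ℂ) ≠ 0 := card_ne_zero G
  have h1 : ∀ g : G, (if g = 1 then (1 : ℂ) else 0) =
      (Nat.card G : ℂ)⁻¹ * ∑ χ : IrrCharacter G, (χ : G → ℂ) g * (χ : G → ℂ) 1 := by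
    intro g
    rw [col_orth_one]
    by_cases hg : g = 1
    · rw [if_pos hg, if_pos hg, inv_mul_cancel₀ hG]
    · rw [if_neg hg, if_neg hg, mul_zero]
  have h2 : ∑ s : G, ∑ t : G, (if s * a * s⁻¹ * (t * b * t⁻¹ * c) = 1 then (1 : ℂ) else 0) =
      (Nat.card G : ℂ)⁻¹ * ∑ χ : IrrCharacter G,
        (∑ s : G, ∑ t : G, (χ : G → ℂ) (s * a * s⁻¹ * (t * b * t⁻¹ * c))) * (χ : G → ℂ) 1 := by
    simp only [h1, Finset.sum_mul, Finset.mul_sum]
    rw [Finset.sum_congr rfl (fun s _ => Finset.sum_comm), Finset.sum_comm]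
  rw [h2, Finset.mul_sum, Finset.mul_sum]
  refine Finset.sum_congr rfl fun χ _ => ?_
  have h0 : (χ : G → ℂ) 1 ≠ 0 := irr_one_ne_zero χ
  rw [irr_sum_conj_conj_mul]
  field_simp

open scoped Classical in
/-- If no quotient `g h⁻¹` of a conjugate `g` of `a` and a conjugate `h` of `b` is a nontrivial
`p`-element, then summing the class-constant identity over a Sylow `p`-subgroup counts the
pairs of equal conjugates. -/
theorem sylow_sum_identity {p : ℕ} [Fact p.Prime] (P : Sylow p G) (a b : G)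
    (hsep : ∀ g h : G, IsConj a g → IsConj b h → ∀ k : ℕ, 0 < k → orderOf (g * h⁻¹) ≠ p ^ k) :
    (Nat.card G : ℂ) * ∑ χ : IrrCharacter G,
        (χ : G → ℂ) a * conj ((χ : G → ℂ) b) * (∑ u : P, (χ : G → ℂ) u) / (χ : G → ℂ) 1 =
      ∑ s : G, ∑ t : G, (if s * a * s⁻¹ = t * b * t⁻¹ then (1 : ℂ) else 0) := by
  have hP : ∀ u : P, ∃ k : ℕ, orderOf u = p ^ k := IsPGroup.iff_orderOf.mp P.isPGroup'
  have h1 : ∀ u : P, ∑ s : G, ∑ t : G,
      (if s * a * s⁻¹ * (t * b⁻¹ * t⁻¹ * (u : G)⁻¹) = 1 then (1 : ℂ) else 0) =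
      (Nat.card G : ℂ) * ∑ χ : IrrCharacter G,
        (χ : G → ℂ) a * (χ : G → ℂ) b⁻¹ * (χ : G → ℂ) (u : G)⁻¹ / (χ : G → ℂ) 1 :=
    fun u => sum_pairs_eq_one a b⁻¹ _
  have h2 : ∑ u : P, ∑ s : G, ∑ t : G,
      (if s * a * s⁻¹ * (t * b⁻¹ * t⁻¹ * (u : G)⁻¹) = 1 then (1 : ℂ) else 0) =
      ∑ s : G, ∑ t : G, (if s * a * s⁻¹ = t * b * t⁻¹ then (1 : ℂ) else 0) := by
    rw [Finset.sum_comm]
    refine Finset.sum_congr rfl fun s _ => ?_
    rw [Finset.sum_comm]
    refine Finset.sum_congr rfl fun t _ => ?_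
    have e1 : t * b⁻¹ * t⁻¹ = (t * b * t⁻¹)⁻¹ := by group
    by_cases hgh : s * a * s⁻¹ = t * b * t⁻¹
    · rw [if_pos hgh]
      have e2 : ∀ u : P, (s * a * s⁻¹ * (t * b⁻¹ * t⁻¹ * (u : G)⁻¹) = 1) ↔ u = 1 := by
        intro u
        rw [e1, hgh, ← mul_assoc, mul_inv_cancel, one_mul, inv_eq_one]
        exact ⟨fun h => Subtype.ext h, fun h => by rw [h]; rfl⟩
      simp only [e2, Finset.sum_ite_eq', Finset.mem_univ, if_true]
    · rw [if_neg hgh]
      refine Finset.sum_eq_zero fun u _ => ?_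
      rw [if_neg]
      intro hu
      have e3 : s * a * s⁻¹ * (t * b * t⁻¹)⁻¹ = (u : G) := by
        rw [e1, ← mul_assoc] at hu
        exact mul_inv_eq_one.mp hu
      obtain ⟨k, hk⟩ := hP u
      have hk' : orderOf (s * a * s⁻¹ * (t * b * t⁻¹)⁻¹) = p ^ k := by
        rw [e3, Subgroup.orderOf_coe]; exact hk
      rcases Nat.eq_zero_or_pos k with h0 | h0
      · rw [h0, pow_zero, orderOf_eq_one_iff] at hk'
        exact hgh (mul_inv_eq_one.mp hk')
      · exact hsep _ _ (isConj_iff.mpr ⟨s, rfl⟩) (isConj_iff.mpr ⟨t, rfl⟩) k h0 hk'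
  have h3 : ∑ u : P, ∑ s : G, ∑ t : G,
      (if s * a * s⁻¹ * (t * b⁻¹ * t⁻¹ * (u : G)⁻¹) = 1 then (1 : ℂ) else 0) =
      ∑ u : P, (Nat.card G : ℂ) * ∑ χ : IrrCharacter G,
        (χ : G → ℂ) a * (χ : G → ℂ) b⁻¹ * (χ : G → ℂ) (u : G)⁻¹ / (χ : G → ℂ) 1 :=
    Finset.sum_congr rfl (fun u _ => h1 u)
  rw [← h2, h3, ← Finset.mul_sum, Finset.sum_comm]
  congr 1
  refine Finset.sum_congr rfl fun χ _ => ?_
  have e4 : ∑ u : P, (χ : G → ℂ) (u : G)⁻¹ = ∑ u : P, (χ : G → ℂ) (u : G) := by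
    have e5 := Equiv.sum_comp (Equiv.inv P) (fun u : P => (χ : G → ℂ) (u : G))
    simpa using e5
  rw [← Finset.sum_div, ← Finset.mul_sum, Cfsg.Agent.Lib.Helper82.irr_inv, e4]

end Count

end Cfsg.Agent.Lib.Helper22
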