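import Mathlib
import Cfsg.Agent.Lib.Helper22.SepA
import Cfsg.Agent.Lib.Helper22.FMT
import Cfsg.Agent.Lib.Helper22.IndDefect
import Cfsg.Agent.Lib.Helper22.HeightZero
import Cfsg.Agent.Lib.Helper22.DefectTwoA
import Cfsg.Agent.Lib.Helper22.BrCorrA
import Cfsg.Agent.Lib.Helper82.Sect
import Cfsg.Agent.Lib.Helper4.CharDecomp
import Cfsg.Agent.Lib.Helper4.CharClosure
import Cfsg.Agent.Lib.Helper4.CharSimple
import Cfsg.Agent.S0908
import Cfsg.Agent.S0931

/-!
# Blocks attached to `p`-separated classes (helper22)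

* `exists_sum_subgroup_eq`: the sum of an irreducible character over a subgroup `P` is
  `|P|` times a natural number (the multiplicity of the trivial character);
* `sum_pairs_conj_eq`: the number of pairs of equal conjugates of `a` and `b`;
* `sep_identity`: the resulting orthogonality-type relation;
* `centralChar_mul_conj_locIdeal`: vanishing modulo the local ideal for blocks whose defect
  groups are not the common Sylow subgroup of the centralizers;
* `exists_fun_det_not_locIdeal`: a Cauchy–Binet type selection of a unit minor;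
* `sep_blocks`: the blocks attached to `p`-separated classes.
-/

set_option autoImplicit false

namespace Cfsg.Agent.Lib.Helper22

open Cfsg Cfsg.Agent.Lib.Helper4 Cfsg.Agent.Lib.Helper21
open scoped ComplexConjugate

section Mult

variable {G : Type*} [Group G] [Finite G]

theorem exists_sum_subgroup_eq (P : Subgroup G) [Fintype P] (χ : IrrCharacter G) :
    ∃ m : ℕ, ∑ u : P, (χ : G → ℂ) u = (Nat.card P : ℂ) * m := by
  classical
  have hfin : Finite (IrrCharacter P) := irr_finite
  have := Fintype.ofFinite (IrrCharacter P)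
  obtain ⟨m, hm⟩ := exists_decomp_of_isCharacter (fun u : P => (χ : G → ℂ) u)
    (isCharacter_restrict P _ (isCharacter_of_irr χ))
  refine ⟨m (Cfsg.Agent.Lib.Helper4.trivIrr : IrrCharacter P), ?_⟩
  have h1 := classInner_sum_irr (fun ψ => (m ψ : ℂ)) (Cfsg.Agent.Lib.Helper4.trivIrr : IrrCharacter P)
  rw [← hm] at h1
  unfold classInner at h1
  have hP : (Nat.card P : ℂ) ≠ 0 := by exact_mod_cast Nat.card_pos.ne'
  have h2 : ∑ g : P, (χ : G → ℂ) g * conj ((Cfsg.Agent.Lib.Helper4.trivIrr : IrrCharacter P).1 g) =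
      ∑ u : P, (χ : G → ℂ) u := by
    refine Finset.sum_congr rfl fun g _ => ?_
    rw [Cfsg.Agent.Lib.Helper4.trivIrr_apply, map_one, mul_one]
  rw [← h1, ← h2, ← mul_assoc, mul_inv_cancel₀ hP, one_mul]

end Mult

section Count2

variable {G : Type*} [Group G] [Fintype G]

open scoped Classical in
theorem sum_pairs_conj_eq (a b : G) :
    ∑ s : G, ∑ t : G, (if s * a * s⁻¹ = t * b * t⁻¹ then (1 : ℂ) else 0) =
      if IsConj a b then
        (Nat.card G : ℂ) * (Nat.card (Subgroup.centralizer ({a} : Set G)) : ℂ)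
      else 0 := by
  by_cases hab : IsConj a b
  · rw [if_pos hab, Finset.sum_comm]
    have h1 : ∀ t : G, ∑ s : G, (if s * a * s⁻¹ = t * b * t⁻¹ then (1 : ℂ) else 0) =
        (Nat.card (Subgroup.centralizer ({a} : Set G)) : ℂ) := by
      intro t
      have hk : IsConj a (t * b * t⁻¹) := hab.trans (isConj_iff.mpr ⟨t, rfl⟩)
      have e := Equiv.sum_comp (Equiv.inv G)
        (fun s : G => if s * a * s⁻¹ = t * b * t⁻¹ then (1 : ℂ) else 0)
      simp only [Equiv.inv_apply, inv_inv] at e
      rw [← e, Finset.sum_boole, card_filter_conj_eq a _ hk]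
    rw [Finset.sum_congr rfl (fun t _ => h1 t), Finset.sum_const, Finset.card_univ,
      nsmul_eq_mul, Nat.card_eq_fintype_card (α := G)]
  · rw [if_neg hab]
    refine Finset.sum_eq_zero fun s _ => Finset.sum_eq_zero fun t _ => ?_
    rw [if_neg]
    intro h
    apply hab
    have h1 : IsConj a (s * a * s⁻¹) := isConj_iff.mpr ⟨s, rfl⟩
    have h2 : IsConj b (t * b * t⁻¹) := isConj_iff.mpr ⟨t, rfl⟩
    rw [h] at h1
    exact h1.trans h2.symm

variable [Fintype (IrrCharacter G)]

open scoped Classical in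
theorem sep_identity {p : ℕ} [Fact p.Prime] (P : Sylow p G) (m : IrrCharacter G → ℕ)
    (hm : ∀ χ : IrrCharacter G, ∑ u : P, (χ : G → ℂ) u = (Nat.card P : ℂ) * m χ) (a b : G)
    (hsep : ∀ g h : G, IsConj a g → IsConj b h → ∀ k : ℕ, 0 < k → orderOf (g * h⁻¹) ≠ p ^ k) :
    ∑ χ : IrrCharacter G, centralChar (χ : G → ℂ) a * (m χ : ℂ) * conj ((χ : G → ℂ) b) =
      if IsConj a b then ((P : Subgroup G).index : ℂ) else 0 := by
  have h1 := sylow_sum_identity P a b hsep
  rw [sum_pairs_conj_eq] at h1
  have hG : (Nat.card G : ℂ) ≠ 0 := card_ne_zero G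
  have hP : (Nat.card P : ℂ) ≠ 0 := by exact_mod_cast Nat.card_pos.ne'
  have hC : (Nat.card (Subgroup.centralizer ({a} : Set G)) : ℂ) ≠ 0 := by
    exact_mod_cast Nat.card_pos.ne'
  have e1 : ∑ χ : IrrCharacter G, centralChar (χ : G → ℂ) a * (m χ : ℂ) * conj ((χ : G → ℂ) b) =
      ((Subgroup.centralizer ({a} : Set G)).index : ℂ) / (Nat.card P : ℂ) *
        ∑ χ : IrrCharacter G, (χ : G → ℂ) a * conj ((χ : G → ℂ) b) *
          (∑ u : P, (χ : G → ℂ) u) / (χ : G → ℂ) 1 := by
    rw [Finset.mul_sum]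
    refine Finset.sum_congr rfl fun χ _ => ?_
    have h0 : (χ : G → ℂ) 1 ≠ 0 := irr_one_ne_zero χ
    rw [hm χ]
    unfold centralChar
    field_simp
  have e2 : ∑ χ : IrrCharacter G, (χ : G → ℂ) a * conj ((χ : G → ℂ) b) *
      (∑ u : P, (χ : G → ℂ) u) / (χ : G → ℂ) 1 = (Nat.card G : ℂ)⁻¹ *
      (if IsConj a b then
        (Nat.card G : ℂ) * (Nat.card (Subgroup.centralizer ({a} : Set G)) : ℂ)
      else 0) := by
    rw [← h1, ← mul_assoc, inv_mul_cancel₀ hG, one_mul]
  rw [e1, e2]
  by_cases hab : IsConj a b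
  · rw [if_pos hab, if_pos hab]
    have e3 : (Nat.card (Subgroup.centralizer ({a} : Set G)) : ℂ) *
        ((Subgroup.centralizer ({a} : Set G)).index : ℂ) = (Nat.card G : ℂ) := by
      exact_mod_cast Subgroup.card_mul_index (Subgroup.centralizer ({a} : Set G))
    have e4 : (Nat.card P : ℂ) * ((P : Subgroup G).index : ℂ) = (Nat.card G : ℂ) := by
      exact_mod_cast Subgroup.card_mul_index (P : Subgroup G)
    have e5 : ((P : Subgroup G).index : ℂ) = (Nat.card G : ℂ) / (Nat.card P : ℂ) := by
      rw [← e4]; field_simp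
    rw [e5, ← e3]
    field_simp
  · rw [if_neg hab, if_neg hab, mul_zero, mul_zero]

end Count2

section Blocks

variable {G : Type*} [Group G] [Fintype G] {p : ℕ} [Fact p.Prime] {M : Ideal AlgInt}

omit [Fintype G] [Fact p.Prime] in
theorem centralizer_inv_singleton (y : G) :
    Subgroup.centralizer ({y⁻¹} : Set G) = Subgroup.centralizer ({y} : Set G) := by
  ext x
  rw [mem_centralizer_singleton_iff', mem_centralizer_singleton_iff']
  constructor
  · intro h
    have e : y * x = y * (x * y⁻¹) * y := by group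
    rw [e, ← h]; group
  · intro h
    have e : y⁻¹ * x = y⁻¹ * (x * y) * y⁻¹ := by group
    rw [e, ← h]; group

theorem irr_conj_locIdeal_of_defect_lt (hM : IsPModular p M) (χ : IrrCharacter G) (y : G)
    (h : blockDefect p (blockOf M (χ : G → ℂ)) <
      (Nat.card (Subgroup.centralizer ({y} : Set G))).factorization p) :
    MemLocalIdeal M (conj ((χ : G → ℂ) y)) := by
  have hp : p.Prime := Fact.out
  obtain ⟨hq1, hq0⟩ := Cfsg.Agent.Lib.Helper82.irr_charDegree χ
  have hqd := Cfsg.Agent.Lib.Helper82.irr_degree_dvd_card χ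
  have hG0 : Nat.card G ≠ 0 := Nat.card_pos.ne'
  have hn : (Subgroup.centralizer ({y} : Set G)).index ≠ 0 := Subgroup.index_ne_zero_of_finite
  have hC0 : Nat.card (Subgroup.centralizer ({y} : Set G)) ≠ 0 := Nat.card_pos.ne'
  have hcn := Subgroup.card_mul_index (Subgroup.centralizer ({y} : Set G))
  have hs : sInf ((fun ψ : IrrCharacter G => (charDegree (ψ : G → ℂ)).factorization p) ''
      blockOf M (χ : G → ℂ)) ≤ (charDegree (χ : G → ℂ)).factorization p :=
    Nat.sInf_le ⟨χ, Cfsg.Agent.Lib.Helper22.mem_blockOf_self hM χ, rfl⟩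
  have hqG : (charDegree (χ : G → ℂ)).factorization p ≤ (Nat.card G).factorization p :=
    (Nat.factorization_le_iff_dvd hq0 hG0).mpr hqd p
  have hfac : (Nat.card G).factorization p =
      (Nat.card (Subgroup.centralizer ({y} : Set G))).factorization p +
        ((Subgroup.centralizer ({y} : Set G)).index).factorization p := by
    rw [← hcn, Nat.factorization_mul hC0 hn]; rfl
  unfold blockDefect at h
  have key : (p * (Subgroup.centralizer ({y} : Set G)).index).factorization p ≤
      (charDegree (χ : G → ℂ)).factorization p := by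
    rw [Nat.factorization_mul hp.ne_zero hn, Finsupp.add_apply, hp.factorization_self]
    omega
  have hR := locRing_natCast_div hM (charDegree (χ : G → ℂ))
    (p * (Subgroup.centralizer ({y} : Set G)).index) hq0 (mul_ne_zero hp.ne_zero hn) key
  have hpJ : MemLocalIdeal M (p : ℂ) := (locIdeal_natCast_iff hM p).mpr dvd_rfl
  have hpc : (p : ℂ) ≠ 0 := by exact_mod_cast hp.ne_zero
  have hnc : ((Subgroup.centralizer ({y} : Set G)).index : ℂ) ≠ 0 := by exact_mod_cast hn
  have h0 : (χ : G → ℂ) 1 ≠ 0 := irr_one_ne_zero χ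
  have e : conj ((χ : G → ℂ) y) = (p : ℂ) * (((charDegree (χ : G → ℂ) : ℕ) : ℂ) /
      ((p * (Subgroup.centralizer ({y} : Set G)).index : ℕ) : ℂ) *
        centralChar (χ : G → ℂ) y⁻¹) := by
    rw [← Cfsg.Agent.Lib.Helper82.irr_inv]
    unfold centralChar
    rw [centralizer_inv_singleton, hq1]
    push_cast
    field_simp
  rw [e]
  exact locIdeal_mul_right hM hpJ (locRing_mul hM hR (centralChar_locRing hM χ y⁻¹))

theorem centralChar_mul_conj_locIdeal (hM : IsPModular p M) (D : Subgroup G) (x y : G)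
    (hDx : IsSylowOf p (Subgroup.centralizer ({x} : Set G)) D)
    (hDy : IsSylowOf p (Subgroup.centralizer ({y} : Set G)) D) (χ : IrrCharacter G)
    (hχ : ¬ IsDefectGroup p M (blockOf M (χ : G → ℂ)) D) :
    MemLocalIdeal M (centralChar (χ : G → ℂ) x * conj ((χ : G → ℂ) y)) := by
  by_cases h : MemLocalIdeal M (centralChar (χ : G → ℂ) x)
  · exact locIdeal_mul_right hM h (Cfsg.Agent.Lib.Helper82.irr_conj_locRing hM χ y)
  · refine locIdeal_mul_left hM (centralChar_locRing hM χ x)
      (irr_conj_locIdeal_of_defect_lt hM χ y ?_)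
    have hB : IsPBlock M (blockOf M (χ : G → ℂ)) := ⟨χ, rfl⟩
    obtain ⟨D', hD'⟩ := Cfsg.Agent.S0931.exists_defectGroup p M hM _ hB
    have hD'p := isDefectGroup_isPGroup _ D' hD'
    obtain ⟨z, hz⟩ := exists_conj_le_centralizer_of_centralChar_unit hM _ hB D' hD' χ
      (Cfsg.Agent.Lib.Helper22.mem_blockOf_self hM χ) x h
    have hdvd := card_dvd_of_isSylowOf hDx (hD'p.map (MulAut.conj z).toMonoidHom) hz
    rw [card_conj_map] at hdvd
    have hlt : Nat.card D' < Nat.card D := by
      refine lt_of_le_of_ne (Nat.le_of_dvd Nat.card_pos hdvd) fun heq => hχ ?_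
      have hS : IsSylowOf p (Subgroup.centralizer ({x} : Set G))
          (D'.map (MulAut.conj z).toMonoidHom) := by
        rw [isSylowOf_iff]
        exact ⟨hz, by rw [card_conj_map, heq]; exact hDx.card⟩
      obtain ⟨w, -, hw⟩ := exists_conj_of_isSylowOf hS hDx
      rw [hw]
      exact isDefectGroup_conj _ _ w (isDefectGroup_conj _ _ z hD')
    rw [Cfsg.Agent.S0908.result p M hM _ hB D' hD', hDy.card] at hlt
    exact (Nat.pow_lt_pow_iff_right (Fact.out : p.Prime).one_lt).mp hlt

omit [Fintype G] [Fact p.Prime] in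
theorem exists_fun_det_not_locIdeal (hM : IsPModular p M) {n m : Type*} [Fintype n]
    [DecidableEq n] [Fintype m] [DecidableEq m] (Ω : Matrix n m ℂ) (Y : Matrix m n ℂ)
    (hΩ : ∀ i B, MemLocalRing M (Ω i B)) (hY : ∀ B j, MemLocalRing M (Y B j)) (c : ℕ)
    (hc : ¬ p ∣ c)
    (h : ∀ i j, MemLocalIdeal M ((Ω * Y) i j - if i = j then (c : ℂ) else 0)) :
    ∃ f : n → m, Function.Injective f ∧
      ¬ MemLocalIdeal M (Matrix.of fun i j => Ω i (f j)).det := by
  have hp := pmod_prime hM
  have h1 : MemLocalIdeal M ((Ω * Y).det - (Matrix.diagonal fun _ : n => (c : ℂ)).det) := by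
    refine det_sub_locIdeal hM _ _ (fun i j => ?_) (fun i j => ?_) (fun i j => ?_)
    · rw [Matrix.mul_apply]
      exact locRing_sum hM _ _ fun B _ => locRing_mul hM (hΩ i B) (hY B j)
    · rw [Matrix.diagonal_apply]
      split_ifs
      · exact locRing_natCast hM c
      · exact locRing_zero hM
    · rw [Matrix.diagonal_apply]; exact h i j
  rw [Matrix.det_diagonal, Finset.prod_const] at h1
  have h2 : ¬ MemLocalIdeal M (Ω * Y).det := by
    intro h3
    have h4 := locIdeal_sub hM h3 h1
    rw [sub_sub_cancel] at h4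
    have h5 : ((c ^ (Finset.univ : Finset n).card : ℕ) : ℂ) =
        (c : ℂ) ^ (Finset.univ : Finset n).card := by push_cast; rfl
    rw [← h5, locIdeal_natCast_iff hM] at h4
    exact hc (hp.dvd_of_dvd_pow h4)
  rw [det_mul_expand] at h2
  by_contra hcon
  push Not at hcon
  apply h2
  refine locIdeal_sum hM _ _ fun f _ => ?_
  by_cases hf : Function.Injective f
  · exact locIdeal_mul_left hM (locRing_prod hM _ _ fun j _ => hY _ _) (hcon f hf)
  · rw [Function.not_injective_iff] at hf
    obtain ⟨a, b, hab, hne⟩ := hf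
    have h0 : (Matrix.of fun i j => Ω i (f j)).det = 0 :=
      Matrix.det_zero_of_column_eq hne (fun i => by simp [hab])
    rw [h0, mul_zero]
    exact locIdeal_zero hM

end Blocks

end Cfsg.Agent.Lib.Helper22
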