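import Mathlib
import Cfsg.Agent.Lib.Helper22.SepB

/-!
# Blocks attached to `p`-separated classes: the main construction (helper22)

`sep_blocks`: if `x₁, …, x_r` are pairwise non-conjugate elements whose centralizers have the
common Sylow `p`-subgroup `D`, and no quotient of conjugates of the `xᵢ` is a nontrivial
`p`-element, then there are `r` distinct blocks `Bᵢ` with defect group `D` such that
`det (χᵢ(xⱼ))` is a local unit for all height zero characters `χᵢ ∈ Bᵢ`.
-/

set_option autoImplicit false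

namespace Cfsg.Agent.Lib.Helper22

open Cfsg Cfsg.Agent.Lib.Helper4 Cfsg.Agent.Lib.Helper21
open scoped ComplexConjugate

section Main

variable {G : Type*} [Group G] {p : ℕ} [Fact p.Prime] {M : Ideal AlgInt}

/-- The blocks with defect group `D`. -/
abbrev DBlock (p : ℕ) (M : Ideal AlgInt) (D : Subgroup G) : Type _ :=
  {B : Set (IrrCharacter G) // IsPBlock M B ∧ IsDefectGroup p M B D}

open scoped Classical in
theorem sep_congr [Fintype G] [Fintype (IrrCharacter G)] (hM : IsPModular p M) (D : Subgroup G)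
    [Fintype (DBlock p M D)] (rep : DBlock p M D → IrrCharacter G) (hrep : ∀ B, rep B ∈ B.1)
    (m : IrrCharacter G → ℕ) (a b : G)
    (hDa : IsSylowOf p (Subgroup.centralizer ({a} : Set G)) D)
    (hDb : IsSylowOf p (Subgroup.centralizer ({b} : Set G)) D) :
    MemLocalIdeal M ((∑ B : DBlock p M D, centralChar (rep B : G → ℂ) a *
        ∑ χ : IrrCharacter G, if χ ∈ B.1 then (m χ : ℂ) * conj ((χ : G → ℂ) b) else 0) -
      ∑ χ : IrrCharacter G, centralChar (χ : G → ℂ) a * (m χ : ℂ) * conj ((χ : G → ℂ) b)) := by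
  have e1 : ∑ B : DBlock p M D, centralChar (rep B : G → ℂ) a *
        ∑ χ : IrrCharacter G, (if χ ∈ B.1 then (m χ : ℂ) * conj ((χ : G → ℂ) b) else 0) =
      ∑ χ : IrrCharacter G, ∑ B : DBlock p M D, centralChar (rep B : G → ℂ) a *
        (if χ ∈ B.1 then (m χ : ℂ) * conj ((χ : G → ℂ) b) else 0) := by
    rw [Finset.sum_comm]
    exact Finset.sum_congr rfl fun B _ => Finset.mul_sum _ _ _
  rw [e1, ← Finset.sum_sub_distrib]
  refine locIdeal_sum hM _ _ fun χ _ => ?_
  by_cases hχ : IsDefectGroup p M (blockOf M (χ : G → ℂ)) D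
  · have e2 : ∑ B : DBlock p M D, centralChar (rep B : G → ℂ) a *
        (if χ ∈ B.1 then (m χ : ℂ) * conj ((χ : G → ℂ) b) else 0) =
        centralChar (rep ⟨blockOf M (χ : G → ℂ), ⟨χ, rfl⟩, hχ⟩ : G → ℂ) a *
          ((m χ : ℂ) * conj ((χ : G → ℂ) b)) := by
      rw [Finset.sum_eq_single (⟨blockOf M (χ : G → ℂ), ⟨χ, rfl⟩, hχ⟩ : DBlock p M D)]
      · rw [if_pos (Cfsg.Agent.Lib.Helper22.mem_blockOf_self hM χ)]
      · intro B _ hB
        rw [if_neg, mul_zero]
        intro hχB
        exact hB (Subtype.ext (blockOf_eq_of_mem hM B.1 B.2.1 χ hχB))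
      · intro h; exact absurd (Finset.mem_univ _) h
    rw [e2]
    have h1 : SameBlock M (χ : G → ℂ)
        (rep ⟨blockOf M (χ : G → ℂ), ⟨χ, rfl⟩, hχ⟩ : G → ℂ) :=
      hrep ⟨blockOf M (χ : G → ℂ), ⟨χ, rfl⟩, hχ⟩
    have h2 := locIdeal_neg (h1 a)
    have h3 := locIdeal_mul_right hM h2 (locRing_mul hM (locRing_natCast hM (m χ))
      (Cfsg.Agent.Lib.Helper82.irr_conj_locRing hM χ b))
    convert h3 using 1
    ring
  · have e2 : ∑ B : DBlock p M D, centralChar (rep B : G → ℂ) a *
        (if χ ∈ B.1 then (m χ : ℂ) * conj ((χ : G → ℂ) b) else 0) = 0 := by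
      refine Finset.sum_eq_zero fun B _ => ?_
      rw [if_neg, mul_zero]
      intro hχB
      apply hχ
      rw [← blockOf_eq_of_mem hM B.1 B.2.1 χ hχB]
      exact B.2.2
    rw [e2, zero_sub]
    have h1 := centralChar_mul_conj_locIdeal hM D a b hDa hDb χ hχ
    have h2 := locIdeal_neg (locIdeal_mul_left hM (locRing_natCast hM (m χ)) h1)
    convert h2 using 1
    ring

theorem sep_blocks [Finite G] (hM : IsPModular p M) (D : Subgroup G) {r : ℕ} (x : Fin r → G)
    (hx : ∀ i j, IsConj (x i) (x j) → i = j)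
    (hD : ∀ i, IsSylowOf p (Subgroup.centralizer ({x i} : Set G)) D)
    (hsep : ∀ i j g h, IsConj (x i) g → IsConj (x j) h → ∀ k, 0 < k →
      orderOf (g * h⁻¹) ≠ p ^ k) :
    ∃ B : Fin r → Set (IrrCharacter G), Function.Injective B ∧
      (∀ i, IsPBlock M (B i) ∧ IsDefectGroup p M (B i) D) ∧
      ∀ χ : Fin r → IrrCharacter G,
        (∀ i, χ i ∈ B i ∧ blockHeight p (B i) (χ i : G → ℂ) = 0) →
        ¬ MemLocalIdeal M (Matrix.det (Matrix.of fun i j => (χ i : G → ℂ) (x j))) := by
  classical
  have hp : p.Prime := Fact.out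
  have := Fintype.ofFinite G
  have hfin : Finite (IrrCharacter G) := irr_finite
  have := Fintype.ofFinite (IrrCharacter G)
  have := Fintype.ofFinite (DBlock p M D)
  obtain ⟨P⟩ : Nonempty (Sylow p G) := inferInstance
  choose m hm using fun χ : IrrCharacter G => exists_sum_subgroup_eq (P : Subgroup G) χ
  choose rep hrep using fun B : DBlock p M D => exists_mem_of_isPBlock hM B.2.1
  let Ω : Matrix (Fin r) (DBlock p M D) ℂ := fun i B => centralChar (rep B : G → ℂ) (x i)
  let Y : Matrix (DBlock p M D) (Fin r) ℂ := fun B j =>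
    ∑ χ : IrrCharacter G, if χ ∈ B.1 then (m χ : ℂ) * conj ((χ : G → ℂ) (x j)) else 0
  have hΩ : ∀ i B, MemLocalRing M (Ω i B) := fun i B => centralChar_locRing hM _ _
  have hY : ∀ B j, MemLocalRing M (Y B j) := fun B j => locRing_sum hM _ _ fun χ _ => by
    split_ifs
    · exact locRing_mul hM (locRing_natCast hM _)
        (Cfsg.Agent.Lib.Helper82.irr_conj_locRing hM χ _)
    · exact locRing_zero hM
  have hkey : ∀ i j, MemLocalIdeal M ((Ω * Y) i j -
      if i = j then (((P : Subgroup G).index : ℕ) : ℂ) else 0) := by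
    intro i j
    have h1 := sep_congr hM D rep hrep m (x i) (x j) (hD i) (hD j)
    have h2 := sep_identity P m hm (x i) (x j) (hsep i j)
    rw [h2] at h1
    have e : (if IsConj (x i) (x j) then ((P : Subgroup G).index : ℂ) else 0) =
        if i = j then ((P : Subgroup G).index : ℂ) else 0 := by
      by_cases hij : i = j
      · rw [if_pos hij, if_pos (hij ▸ IsConj.refl _)]
      · rw [if_neg hij, if_neg (fun h => hij (hx i j h))]
    rw [e] at h1
    rw [Matrix.mul_apply]
    exact h1
  obtain ⟨f, hf, hdet⟩ := exists_fun_det_not_locIdeal hM Ω Y hΩ hY (P : Subgroup G).index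
    P.not_dvd_index hkey
  refine ⟨fun i => (f i).1, fun i j hij => hf (Subtype.ext hij), fun i => (f i).2, ?_⟩
  intro χ hχ hcon
  apply hdet
  have hSB : ∀ i g, MemLocalIdeal M
      (centralChar (χ i : G → ℂ) g - centralChar (rep (f i) : G → ℂ) g) := by
    intro i g
    have h1 := blockOf_eq_of_mem hM (f i).1 (f i).2.1 (χ i) (hχ i).1
    have h2 : rep (f i) ∈ blockOf M (χ i : G → ℂ) := h1 ▸ hrep (f i)
    exact h2 g
  have hW : MemLocalIdeal M ((Matrix.of fun i j => centralChar (χ i : G → ℂ) (x j)).det -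
      (Matrix.of fun i j => Ω i (f j)).transpose.det) :=
    det_sub_locIdeal hM _ _ (fun i j => centralChar_locRing hM _ _) (fun i j => hΩ _ _)
      (fun i j => hSB i (x j))
  rw [Matrix.det_transpose] at hW
  have hc : ∀ i, MemLocalRing M
      ((((Subgroup.centralizer ({x i} : Set G)).index : ℕ) : ℂ) /
        ((charDegree (χ i : G → ℂ) : ℕ) : ℂ)) := by
    intro i
    obtain ⟨hq1, hq0⟩ := Cfsg.Agent.Lib.Helper82.irr_charDegree (χ i)
    have hn : (Subgroup.centralizer ({x i} : Set G)).index ≠ 0 :=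
      Subgroup.index_ne_zero_of_finite
    refine locRing_natCast_div hM _ _ hn hq0 ?_
    have hheight : blockHeight p (f i).1 (χ i : G → ℂ) = 0 := (hχ i).2
    have hcard := Cfsg.Agent.S0908.result p M hM (f i).1 (f i).2.1 D (f i).2.2
    rw [(hD i).card] at hcard
    have hdef : (Nat.card (Subgroup.centralizer ({x i} : Set G))).factorization p =
        blockDefect p (f i).1 := Nat.pow_right_injective hp.two_le hcard
    unfold blockDefect at hdef
    unfold blockHeight at hheight
    have hs : sInf ((fun ψ : IrrCharacter G => (charDegree (ψ : G → ℂ)).factorization p) ''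
        (f i).1) ≤ (charDegree (χ i : G → ℂ)).factorization p :=
      Nat.sInf_le ⟨χ i, (hχ i).1, rfl⟩
    have hqd := Cfsg.Agent.Lib.Helper82.irr_degree_dvd_card (χ i)
    have hG0 : Nat.card G ≠ 0 := Nat.card_pos.ne'
    have hC0 : Nat.card (Subgroup.centralizer ({x i} : Set G)) ≠ 0 := Nat.card_pos.ne'
    have hcn := Subgroup.card_mul_index (Subgroup.centralizer ({x i} : Set G))
    have hqG : (charDegree (χ i : G → ℂ)).factorization p ≤ (Nat.card G).factorization p :=
      (Nat.factorization_le_iff_dvd hq0 hG0).mpr hqd p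
    have hfac : (Nat.card G).factorization p =
        (Nat.card (Subgroup.centralizer ({x i} : Set G))).factorization p +
          ((Subgroup.centralizer ({x i} : Set G)).index).factorization p := by
      rw [← hcn, Nat.factorization_mul hC0 hn]; rfl
    omega
  have hdetW : (Matrix.of fun i j => centralChar (χ i : G → ℂ) (x j)).det =
      (∏ i, (((Subgroup.centralizer ({x i} : Set G)).index : ℕ) : ℂ) /
        ((charDegree (χ i : G → ℂ) : ℕ) : ℂ)) *
      (Matrix.of fun i j => (χ i : G → ℂ) (x j)).det := by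
    have e1 : (Matrix.of fun i j => centralChar (χ i : G → ℂ) (x j)) =
        Matrix.of fun i j => (((charDegree (χ i : G → ℂ) : ℕ) : ℂ))⁻¹ *
          (Matrix.of fun i j => (((Subgroup.centralizer ({x j} : Set G)).index : ℕ) : ℂ) *
            (Matrix.of fun i j => (χ i : G → ℂ) (x j)) i j) i j := by
      ext i j
      simp only [Matrix.of_apply]
      unfold centralChar
      rw [(Cfsg.Agent.Lib.Helper82.irr_charDegree (χ i)).1, div_eq_inv_mul]
    rw [e1, Matrix.det_mul_column, Matrix.det_mul_row, ← mul_assoc, ← Finset.prod_mul_distrib]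
    congr 1
    exact Finset.prod_congr rfl fun i _ => by rw [div_eq_mul_inv, mul_comm]
  have hW2 : MemLocalIdeal M (Matrix.of fun i j => centralChar (χ i : G → ℂ) (x j)).det := by
    rw [hdetW]
    exact locIdeal_mul_left hM (locRing_prod hM _ _ fun i _ => hc i) hcon
  have h3 := locIdeal_sub hM hW2 hW
  rwa [sub_sub_cancel] at h3

end Main

end Cfsg.Agent.Lib.Helper22
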