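import Mathlib

set_option autoImplicit false

namespace Cfsg.Agent.Lib.Helper22

open scoped BigOperators

/-- Over a field of characteristic `p`, every nonzero function `a` on a finite `p`-group `P`
has a left convolution multiple equal to the constant function `1` (every nonzero left ideal
of the group algebra contains the sum of all group elements). -/
theorem conv_eq_one {P : Type*} [Group P] [Fintype P] {p : ℕ} [hp : Fact p.Prime]
    (hP : IsPGroup p P) {k : Type*} [Field k] [CharP k p] (a : P → k) (ha : a ≠ 0) :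
    ∃ b : P → k, ∀ g : P, ∑ x : P, b x * a (x⁻¹ * g) = 1 := by
  classical
  let c : ZMod p →+* k := ZMod.castHom (dvd_refl p) k
  let Φ : (P → ZMod p) →+ (P → k) :=
    { toFun := fun n g => ∑ x : P, c (n x) * a (x⁻¹ * g)
      map_zero' := by
        funext g
        simp
      map_add' := by
        intro n m
        funext g
        simp only [Pi.add_apply, map_add, add_mul, Finset.sum_add_distrib] }
  have hΦ : ∀ n g, Φ n g = ∑ x : P, c (n x) * a (x⁻¹ * g) := fun _ _ => rfl
  let W : AddSubgroup (P → k) := Φ.range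
  -- `W` is stable under translation
  have hstab : ∀ (y : P) (f : P → k), f ∈ W → (fun g => f (y⁻¹ * g)) ∈ W := by
    rintro y f ⟨n, rfl⟩
    refine ⟨fun x => n (y⁻¹ * x), ?_⟩
    funext g
    rw [hΦ, hΦ]
    refine Fintype.sum_equiv (Equiv.mulLeft y⁻¹) _ _ fun x => ?_
    simp [mul_assoc]
  letI : MulAction P W :=
    { smul := fun y f => ⟨fun g => f.1 (y⁻¹ * g), hstab y f.1 f.2⟩
      one_smul := by
        intro f
        apply Subtype.ext
        funext g
        show f.1 (1⁻¹ * g) = f.1 g
        simp
      mul_smul := by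
        intro x y f
        apply Subtype.ext
        funext g
        show f.1 ((x * y)⁻¹ * g) = f.1 (y⁻¹ * (x⁻¹ * g))
        simp [mul_assoc] }
  have hsmul : ∀ (y : P) (f : W) (g : P), (y • f).1 g = f.1 (y⁻¹ * g) := fun _ _ _ => rfl
  -- `a ∈ W`
  have haW : a ∈ W := by
    refine ⟨fun x => if x = 1 then 1 else 0, ?_⟩
    funext g
    rw [hΦ]
    rw [Finset.sum_eq_single (1 : P)]
    · simp
    · intro x _ hx
      simp [hx]
    · intro h
      exact absurd (Finset.mem_univ _) h
  -- the cardinality of `W` is a positive power of `p`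
  have hfin : Finite W := by
    have : Finite (P → ZMod p) := inferInstance
    exact Set.finite_range (Φ : (P → ZMod p) → (P → k))
  have hdvd : Nat.card W ∣ p ^ Fintype.card P := by
    have h1 : Nat.card Φ.range ∣ Nat.card (P → ZMod p) := AddSubgroup.card_range_dvd Φ
    have h2 : Nat.card (P → ZMod p) = p ^ Fintype.card P := by
      rw [Nat.card_eq_fintype_card, Fintype.card_fun, ZMod.card]
    rw [h2] at h1
    exact h1
  obtain ⟨r, -, hr⟩ := (Nat.dvd_prime_pow hp.out).mp hdvd
  have hnt : Nontrivial W := ⟨⟨⟨a, haW⟩, 0, fun h => ha (congrArg Subtype.val h)⟩⟩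
  have hcard : 1 < Nat.card W := Finite.one_lt_card_iff_nontrivial.mpr hnt
  have hpW : p ∣ Nat.card W := by
    rw [hr]
    rcases r with _ | r
    · rw [hr] at hcard
      simp at hcard
    · exact dvd_pow_self p (Nat.succ_ne_zero r)
  have h0 : (0 : W) ∈ MulAction.fixedPoints P W := by
    intro y
    apply Subtype.ext
    funext g
    rw [hsmul]
    rfl
  obtain ⟨f, hf, hne⟩ := hP.exists_fixed_point_of_prime_dvd_card_of_fixed_point (α := W) hpW h0
  have hconst : ∀ g : P, f.1 g = f.1 1 := by
    intro g
    have h1 := congrArg (fun w : W => w.1 g) (hf g)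
    simp only [hsmul] at h1
    rw [inv_mul_cancel] at h1
    exact h1.symm
  have hc : f.1 1 ≠ 0 := by
    intro h
    apply hne
    apply Subtype.ext
    funext g
    rw [hconst g, h]
    rfl
  obtain ⟨n, hn⟩ := f.2
  refine ⟨fun x => (f.1 1)⁻¹ * c (n x), fun g => ?_⟩
  have h1 : ∑ x : P, c (n x) * a (x⁻¹ * g) = f.1 1 := by
    rw [← hΦ, hn, hconst g]
  simp only [mul_assoc]
  rw [← Finset.mul_sum, h1, inv_mul_cancel₀ hc]

end Cfsg.Agent.Lib.Helper22
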