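import Mathlib
import Cfsg.Agent.Lib.Helper22.TILat1

set_option autoImplicit false

namespace Cfsg.Agent.Lib.Helper22

open scoped BigOperators

/-- A valuation subring of `ℂ` in which the prime `p` is not a unit. -/
theorem exists_valSubring (p : ℕ) (hp : p.Prime) :
    ∃ O : ValuationSubring ℂ, (p : ℂ) ∈ O.nonunits := by
  let A : Subring ℂ := (Int.castRingHom ℂ).range
  have hpA : (p : ℂ) ∈ A := ⟨(p : ℤ), by simp⟩
  let I : Ideal A := Ideal.span {⟨(p : ℂ), hpA⟩}
  have hI : I ≠ ⊤ := by
    intro h
    have h1 : (1 : A) ∈ I := by rw [h]; trivial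
    obtain ⟨a, ha⟩ := Ideal.mem_span_singleton'.mp h1
    obtain ⟨m, hm⟩ := a.2
    have h2 : (a : ℂ) * (p : ℂ) = 1 := congrArg Subtype.val ha
    rw [← hm] at h2
    have h3 : m * (p : ℤ) = 1 := by
      have : ((m * (p : ℤ) : ℤ) : ℂ) = ((1 : ℤ) : ℂ) := by
        push_cast
        exact h2
      exact_mod_cast this
    have h4 : (p : ℤ) ∣ 1 := ⟨m, by rw [mul_comm]; exact h3.symm⟩
    have h5 : p ∣ 1 := by exact_mod_cast h4
    exact hp.one_lt.ne' (Nat.dvd_one.mp h5)
  obtain ⟨B, -, hB⟩ := Ideal.image_subset_nonunits_valuationSubring I hI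
  exact ⟨B, hB ⟨⟨(p : ℂ), hpA⟩, Ideal.subset_span rfl, rfl⟩⟩

/-- **Fixed points in small representations.**  Let `P ≤ H ≤ G` with `P` a `p`-group acting
freely on the cosets of `H` other than `H` itself.  If `τ` is a complex representation of `G` in
which the `P`-translates of every vector with vanishing `G`-average are linearly dependent,
then every `H`-fixed vector is `G`-fixed. -/
theorem fixed_of_free {G : Type*} [Group G] [Fintype G] {p : ℕ} [hp : Fact p.Prime]
    (P H : Subgroup G) (hP : IsPGroup p P) (hPH : P ≤ H)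
    (hfree : ∀ g : G, g ∉ H → ∀ x ∈ P, g⁻¹ * x * g ∈ H → x = 1)
    {T : Type*} [AddCommGroup T] [Module ℂ T] (τ : Representation ℂ G T)
    (hdep : ∀ B : T, ∑ g : G, τ g B = 0 → ¬ LinearIndependent ℂ (fun x : P => τ (x : G) B))
    (A : T) (hA : ∀ h ∈ H, τ h A = A) (g : G) : τ g A = A := by
  classical
  haveI : Fintype P := Fintype.ofFinite P
  obtain ⟨O, hpO⟩ := exists_valSubring p hp.out
  let k := IsLocalRing.ResidueField O
  let res : O →+* k := IsLocalRing.residue O
  have hpO' : (p : ℂ) ∈ O := by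
    have : ((p : ℕ) : ℂ) = ((p : ℤ) : ℂ) := by push_cast; rfl
    rw [this]
    exact intCast_mem O p
  have hpm : (⟨(p : ℂ), hpO'⟩ : O) ∈ IsLocalRing.maximalIdeal O := by
    rw [ValuationSubring.valuation_lt_one_iff]
    exact (ValuationSubring.mem_nonunits_iff O).mp hpO
  have hpk : ((p : ℕ) : k) = 0 := by
    have h1 : res (⟨(p : ℂ), hpO'⟩ : O) = 0 := (IsLocalRing.residue_eq_zero_iff _).mpr hpm
    have h2 : (⟨(p : ℂ), hpO'⟩ : O) = ((p : ℕ) : O) := by
      apply Subtype.ext
      simp
    rw [h2, map_natCast] at h1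
    exact h1
  haveI : CharP k p := (CharP.charP_iff_prime_eq_zero hp.out).mpr hpk
  -- the average
  have hcard : (Fintype.card G : ℂ) ≠ 0 := by
    exact_mod_cast Fintype.card_ne_zero
  have hmulτ : ∀ (a b : G) (t : T), τ a (τ b t) = τ (a * b) t := by
    intro a b t
    rw [map_mul]
    rfl
  let e : T := (Fintype.card G : ℂ)⁻¹ • ∑ g' : G, τ g' A
  have he : ∀ g' : G, τ g' e = e := by
    intro g'
    show τ g' ((Fintype.card G : ℂ)⁻¹ • ∑ g'' : G, τ g'' A) = _
    rw [map_smul, map_sum]
    congr 1
    simp only [hmulτ]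
    exact Fintype.sum_equiv (Equiv.mulLeft g') _ _ fun x => rfl
  let A' : T := A - e
  have hA'H : ∀ h ∈ H, τ h A' = A' := by
    intro h hh
    show τ h (A - e) = A - e
    rw [map_sub, hA h hh, he]
  have hsum : ∑ g' : G, τ g' A' = 0 := by
    show ∑ g' : G, τ g' (A - e) = 0
    simp only [map_sub, he, Finset.sum_sub_distrib, Finset.sum_const, Finset.card_univ]
    show ∑ g' : G, τ g' A - Fintype.card G • ((Fintype.card G : ℂ)⁻¹ • ∑ g' : G, τ g' A) = 0
    rw [← Nat.cast_smul_eq_nsmul ℂ, smul_smul, mul_inv_cancel₀ hcard, one_smul, sub_self]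
  suffices hzero : A' = 0 by
    have h1 : A = e := sub_eq_zero.mp hzero
    rw [h1]
    exact he g
  -- the lattice
  let L : Submodule O T := Submodule.span O (Set.range fun g' : G => τ g' A')
  let m : Ideal O := IsLocalRing.maximalIdeal O
  have hLfg : L.FG := Submodule.fg_span (Set.finite_range _)
  have hmem : ∀ g' : G, τ g' A' ∈ L := fun g' => Submodule.subset_span ⟨g', rfl⟩
  have hτO : ∀ (g' : G) (a : O) (t : T), τ g' (a • t) = a • τ g' t := by
    intro g' a t
    exact (τ g').map_smul_of_tower a t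
  have hLstab : ∀ (g' : G) (t : T), t ∈ L → τ g' t ∈ L := by
    intro g' t ht
    induction ht using Submodule.span_induction with
    | mem x hx =>
      obtain ⟨g'', rfl⟩ := hx
      rw [hmulτ]
      exact hmem _
    | zero => rw [map_zero]; exact L.zero_mem
    | add x y _ _ hx hy => rw [map_add]; exact L.add_mem hx hy
    | smul a x _ hx => rw [hτO]; exact L.smul_mem a hx
  have hstab : ∀ (g' : G) (t : T), t ∈ m • L → τ g' t ∈ m • L := by
    intro g' t ht
    refine Submodule.smul_induction_on ht ?_ ?_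
    · intro r hr n hn
      rw [hτO]
      exact Submodule.smul_mem_smul hr (hLstab g' n hn)
    · intro x y hx hy
      rw [map_add]
      exact (m • L).add_mem hx hy
  -- the key step: the `P`-trace of a lattice generator lies in `m • L`
  have hkey : ∀ g' : G, ∑ x : P, τ (x : G) (τ g' A') ∈ m • L := by
    intro g'
    obtain ⟨B, hB⟩ : ∃ B : T, B = τ g' A' := ⟨_, rfl⟩
    rw [← hB]
    have hBsum : ∑ g'' : G, τ g'' B = 0 := by
      rw [← hsum, hB]
      simp only [hmulτ]
      exact Fintype.sum_equiv (Equiv.mulRight g') _ _ fun x => rfl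
    obtain ⟨c, hc, x₁, hx₁⟩ := Fintype.not_linearIndependent_iff.mp (hdep B hBsum)
    obtain ⟨x₀, -, hx₀⟩ := Finset.exists_max_image Finset.univ (fun x : P => O.valuation (c x))
      ⟨x₁, Finset.mem_univ _⟩
    have hv1 : O.valuation (c x₁) ≠ 0 := (Valuation.ne_zero_iff _).mpr hx₁
    have hv0 : O.valuation (c x₀) ≠ 0 := by
      intro h0
      have := hx₀ x₁ (Finset.mem_univ _)
      rw [h0] at this
      exact hv1 (le_antisymm this zero_le')
    have hc0 : c x₀ ≠ 0 := (Valuation.ne_zero_iff _).mp hv0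
    have hcO : ∀ x : P, c x / c x₀ ∈ O := by
      intro x
      rw [← ValuationSubring.valuation_le_one_iff, map_div₀]
      exact (div_le_one₀ (zero_lt_iff.mpr hv0)).mpr (hx₀ x (Finset.mem_univ _))
    let c' : P → O := fun x => ⟨c x / c x₀, hcO x⟩
    have hc'rel : ∑ x : P, c' x • τ (x : G) B = 0 := by
      have h1 : ∀ x : P, c' x • τ (x : G) B = (c x₀)⁻¹ • (c x • τ (x : G) B) := by
        intro x
        show (c x / c x₀) • τ (x : G) B = _
        rw [smul_smul, div_eq_inv_mul]
      simp only [h1]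
      rw [← Finset.smul_sum, hc, smul_zero]
    let abar : P → k := fun x => res (c' x)
    have habar : abar ≠ 0 := by
      intro h
      have h1 : abar x₀ = 0 := by rw [h]; rfl
      have h2 : c' x₀ = 1 := by
        apply Subtype.ext
        show c x₀ / c x₀ = 1
        exact div_self hc0
      have h3 : abar x₀ = 1 := by
        show res (c' x₀) = 1
        rw [h2, map_one]
      rw [h3] at h1
      exact one_ne_zero h1
    obtain ⟨bbar, hbbar⟩ := conv_eq_one hP abar habar
    have hsurj : ∀ x : P, ∃ b : O, res b = bbar x := fun x => IsLocalRing.residue_surjective _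
    choose b hb using hsurj
    let mc : P → O := fun y => 1 - ∑ x : P, b x * c' (x⁻¹ * y)
    have hmc : ∀ y : P, mc y ∈ m := by
      intro y
      show mc y ∈ IsLocalRing.maximalIdeal O
      rw [← IsLocalRing.residue_eq_zero_iff]
      show res (1 - ∑ x : P, b x * c' (x⁻¹ * y)) = 0
      rw [map_sub, map_one, map_sum]
      simp only [map_mul, hb]
      rw [sub_eq_zero]
      exact (hbbar y).symm
    have hsplit : ∑ y : P, τ (y : G) B =
        ∑ y : P, mc y • τ (y : G) B +
          ∑ y : P, (∑ x : P, b x * c' (x⁻¹ * y)) • τ (y : G) B := by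
      rw [← Finset.sum_add_distrib]
      refine Finset.sum_congr rfl fun y _ => ?_
      rw [← add_smul]
      show _ = (1 - ∑ x : P, b x * c' (x⁻¹ * y) + ∑ x : P, b x * c' (x⁻¹ * y)) • _
      rw [sub_add_cancel, one_smul]
    have hsecond : ∑ y : P, (∑ x : P, b x * c' (x⁻¹ * y)) • τ (y : G) B = 0 := by
      simp only [Finset.sum_smul]
      rw [Finset.sum_comm]
      refine Finset.sum_eq_zero fun x _ => ?_
      have h1 : ∑ y : P, (b x * c' (x⁻¹ * y)) • τ (y : G) B =
          ∑ z : P, (b x * c' z) • τ ((x * z : P) : G) B := by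
        refine (Fintype.sum_equiv (Equiv.mulLeft x) _ _ fun z => ?_).symm
        show (b x * c' z) • τ ((x * z : P) : G) B = (b x * c' (x⁻¹ * (x * z))) • τ ((x * z : P) : G) B
        rw [inv_mul_cancel_left]
      rw [h1]
      have h2 : ∀ z : P, (b x * c' z) • τ ((x * z : P) : G) B =
          b x • τ (x : G) (c' z • τ (z : G) B) := by
        intro z
        rw [hτO, hmulτ, mul_smul]
        rfl
      simp only [h2]
      rw [← Finset.smul_sum, ← map_sum, hc'rel, map_zero, smul_zero]
    rw [hsplit, hsecond, add_zero]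
    refine Submodule.sum_mem _ fun y _ => ?_
    refine Submodule.smul_mem_smul (hmc y) ?_
    rw [hB, hmulτ]
    exact hmem _
  -- decomposition of `G \ H` into double cosets `P g H`
  let HF : Finset G := Finset.univ.filter (· ∈ H)
  let N : ℕ := HF.card
  have hN : (N : ℂ) ≠ 0 := by
    have : 0 < N := Finset.card_pos.mpr ⟨1, by simp [HF, H.one_mem]⟩
    exact_mod_cast this.ne'
  have hdecomp : ∀ Y : Finset G, (∀ y ∈ Y, y ∉ H) →
      (∀ y ∈ Y, ∀ x ∈ P, ∀ h ∈ H, x * y * h ∈ Y) →
      ∃ t ∈ m • L, ∑ y ∈ Y, τ y A' = (N : ℂ) • t := by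
    intro Y
    induction Y using Finset.strongInduction with
    | H Y ih =>
      intro hY1 hY2
      rcases Finset.eq_empty_or_nonempty Y with rfl | ⟨g₀, hg₀⟩
      · exact ⟨0, (m • L).zero_mem, by simp⟩
      · let D : Finset G := ((Finset.univ : Finset P) ×ˢ HF).image (fun xh => (xh.1 : G) * g₀ * xh.2)
        have hDY : D ⊆ Y := by
          intro y hy
          obtain ⟨⟨x, h⟩, hxh, rfl⟩ := Finset.mem_image.mp hy
          have hh : h ∈ H := by
            have := (Finset.mem_product.mp hxh).2
            simpa [HF] using this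
          exact hY2 g₀ hg₀ x x.2 h hh
        have hg₀D : g₀ ∈ D := by
          refine Finset.mem_image.mpr ⟨⟨1, 1⟩, ?_, by simp⟩
          simp [HF, H.one_mem]
        have hss : Y \ D ⊂ Y := by
          refine Finset.ssubset_iff_subset_ne.mpr ⟨Finset.sdiff_subset, fun h => ?_⟩
          have : g₀ ∈ Y \ D := by rw [h]; exact hg₀
          exact (Finset.mem_sdiff.mp this).2 hg₀D
        have h1 : ∀ y ∈ Y \ D, y ∉ H := fun y hy => hY1 y (Finset.mem_sdiff.mp hy).1
        have h2 : ∀ y ∈ Y \ D, ∀ x ∈ P, ∀ h ∈ H, x * y * h ∈ Y \ D := by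
          intro y hy x hx h hh
          obtain ⟨hyY, hyD⟩ := Finset.mem_sdiff.mp hy
          refine Finset.mem_sdiff.mpr ⟨hY2 y hyY x hx h hh, fun hD => hyD ?_⟩
          obtain ⟨⟨x', h'⟩, hxh', heq⟩ := Finset.mem_image.mp hD
          have hh' : h' ∈ H := by
            have := (Finset.mem_product.mp hxh').2
            simpa [HF] using this
          refine Finset.mem_image.mpr ⟨⟨⟨x⁻¹, P.inv_mem hx⟩ * x', h' * h⁻¹⟩, ?_, ?_⟩
          · refine Finset.mem_product.mpr ⟨Finset.mem_univ _, ?_⟩
            simp only [HF, Finset.mem_filter, Finset.mem_univ, true_and]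
            exact H.mul_mem hh' (H.inv_mem hh)
          · show ((⟨x⁻¹, P.inv_mem hx⟩ * x' : P) : G) * g₀ * (h' * h⁻¹) = y
            have heq' : (x' : G) * g₀ * h' = x * y * h := heq
            have : y = x⁻¹ * ((x' : G) * g₀ * h') * h⁻¹ := by
              rw [heq']; group
            rw [this]
            push_cast
            group
        obtain ⟨t', ht', hsum'⟩ := ih (Y \ D) hss h1 h2
        have hinj : Set.InjOn (fun xh : P × G => (xh.1 : G) * g₀ * xh.2)
            (((Finset.univ : Finset P) ×ˢ HF : Finset (P × G)) : Set (P × G)) := by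
          rintro ⟨x, h⟩ hxh ⟨x', h'⟩ hxh' heq
          have hh : h ∈ H := by
            have := (Finset.mem_product.mp (Finset.mem_coe.mp hxh)).2
            simpa [HF] using this
          have hh' : h' ∈ H := by
            have := (Finset.mem_product.mp (Finset.mem_coe.mp hxh')).2
            simpa [HF] using this
          have heq' : (x : G) * g₀ * h = (x' : G) * g₀ * h' := heq
          have h3 : g₀⁻¹ * ((x'⁻¹ * x : P) : G) * g₀ = h' * h⁻¹ := by
            have : (x : G) = (x' : G) * g₀ * h' * h⁻¹ * g₀⁻¹ := by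
              rw [← heq']; group
            push_cast
            rw [this]; group
          have h4 : ((x'⁻¹ * x : P) : G) = 1 :=
            hfree g₀ (hY1 g₀ hg₀) _ (x'⁻¹ * x).2 (by rw [h3]; exact H.mul_mem hh' (H.inv_mem hh))
          have h5 : x = x' := by
            have : x'⁻¹ * x = 1 := Subtype.ext h4
            exact (inv_mul_eq_one.mp this).symm
          subst h5
          have h6 : h = h' := by
            have := mul_left_cancel heq'
            exact this
          rw [h6]
        have hD : ∑ y ∈ D, τ y A' = (N : ℂ) • ∑ x : P, τ (x : G) (τ g₀ A') := by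
          rw [Finset.sum_image hinj, Finset.sum_product]
          rw [Finset.smul_sum]
          refine Finset.sum_congr rfl fun x _ => ?_
          have h3 : ∀ h ∈ HF, τ ((x : G) * g₀ * h) A' = τ (x : G) (τ g₀ A') := by
            intro h hh
            have hh' : h ∈ H := by simpa [HF] using hh
            rw [hmulτ, ← hmulτ ((x : G) * g₀) h, hA'H h hh']
          rw [Finset.sum_congr rfl h3, Finset.sum_const, ← Nat.cast_smul_eq_nsmul ℂ]
        refine ⟨t' + ∑ x : P, τ (x : G) (τ g₀ A'), (m • L).add_mem ht' (hkey g₀), ?_⟩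
        rw [← Finset.sum_sdiff hDY, hsum', hD, smul_add]
  have hA'm : A' ∈ m • L := by
    obtain ⟨t, ht, hsumt⟩ := hdecomp (Finset.univ.filter (· ∉ H))
      (fun y hy => (Finset.mem_filter.mp hy).2)
      (fun y hy x hx h hh => by
        refine Finset.mem_filter.mpr ⟨Finset.mem_univ _, fun hc => ?_⟩
        have hy' : y ∉ H := (Finset.mem_filter.mp hy).2
        apply hy'
        have : y = x⁻¹ * (x * y * h) * h⁻¹ := by group
        rw [this]
        exact H.mul_mem (H.mul_mem (H.inv_mem (hPH hx)) hc) (H.inv_mem hh))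
    have h1 : ∑ y ∈ HF, τ y A' = (N : ℂ) • A' := by
      have : ∀ y ∈ HF, τ y A' = A' := fun y hy => hA'H y (by simpa [HF] using hy)
      rw [Finset.sum_congr rfl this, Finset.sum_const, ← Nat.cast_smul_eq_nsmul ℂ]
    have h2 : ∑ y ∈ HF, τ y A' + ∑ y ∈ Finset.univ.filter (· ∉ H), τ y A' = 0 := by
      rw [← hsum]
      exact Finset.sum_filter_add_sum_filter_not Finset.univ (· ∈ H) _
    rw [h1, hsumt, ← smul_add] at h2
    have h3 : A' + t = 0 := by
      rcases smul_eq_zero.mp h2 with h | h
      · exact absurd h hN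
      · exact h
    have h4 : A' = -t := eq_neg_of_add_eq_zero_left h3
    rw [h4]
    exact (m • L).neg_mem ht
  have hle : L ≤ m • L := by
    refine Submodule.span_le.mpr ?_
    rintro _ ⟨g', rfl⟩
    exact hstab g' _ hA'm
  have hbot : L = ⊥ :=
    Submodule.eq_bot_of_le_smul_of_le_jacobson_bot m L hLfg hle
      (IsLocalRing.maximalIdeal_le_jacobson ⊥)
  have h1 : A' ∈ L := by
    have := hmem 1
    rwa [map_one] at this
  rw [hbot] at h1
  exact (Submodule.mem_bot O).mp h1

end Cfsg.Agent.Lib.Helper22
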