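import Mathlib
import Cfsg.Prelude.Def_Characters
import Cfsg.Prelude.Def_Blocks
import Cfsg.Agent.Lib.Helper22.TILat2
import Cfsg.Agent.Lib.Helper41.Cores
import Cfsg.Agent.Lib.Helper4.Eigen

set_option autoImplicit false

namespace Cfsg.Agent.Lib.Helper22

open Cfsg
open scoped BigOperators ComplexConjugate Pointwise

/-- A trivial-intersection Sylow subgroup `P` acts freely on the cosets, other than the base
coset, of any subgroup `H` containing `N_G(P)`. -/
theorem ti_free {G : Type*} [Group G] [Finite G] {p : ℕ} [Fact p.Prime] (P : Sylow p G)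
    (hTI : ∀ g : G, g ∉ Subgroup.normalizer ((P : Subgroup G) : Set G) →
      (P : Subgroup G) ⊓ (MulAut.conj g • (P : Subgroup G)) = ⊥)
    (H : Subgroup G) (hH : Subgroup.normalizer ((P : Subgroup G) : Set G) ≤ H)
    (g : G) (hg : g ∉ H) (x : G) (hx : x ∈ (P : Subgroup G)) (hy : g⁻¹ * x * g ∈ H) : x = 1 := by
  by_contra hx1
  have hPH : (P : Subgroup G) ≤ H := le_trans Subgroup.le_normalizer hH
  have hidx : ¬ p ∣ (P : Subgroup G).relIndex H := fun h =>
    P.not_dvd_index (h.trans (Subgroup.relIndex_dvd_index_of_le hPH))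
  have hR' : IsPGroup p (Subgroup.zpowers (g⁻¹ * x * g)) := by
    obtain ⟨k, hk⟩ := P.isPGroup' ⟨x, hx⟩
    have hk' : x ^ p ^ k = 1 := by simpa using congrArg Subtype.val hk
    have h1 : (g⁻¹ * x * g) ^ p ^ k = 1 := by
      have : g⁻¹ * x * g = g⁻¹ * x * (g⁻¹)⁻¹ := by rw [inv_inv]
      rw [this, conj_pow, hk']
      simp
    rintro ⟨z, hz⟩
    obtain ⟨n, rfl⟩ := Subgroup.mem_zpowers_iff.mp hz
    refine ⟨k, Subtype.ext ?_⟩
    show ((g⁻¹ * x * g) ^ n) ^ p ^ k = 1
    rw [← zpow_natCast, ← zpow_mul, mul_comm, zpow_mul, zpow_natCast, h1, one_zpow]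
  obtain ⟨m, hm, hconj⟩ := Helper41.exists_conj_le_of_not_dvd_relIndex H (P : Subgroup G)
    (Subgroup.zpowers (g⁻¹ * x * g)) P.isPGroup' hidx
    ((Subgroup.zpowers_le).mpr hy) hR'
  have h2 : m * (g⁻¹ * x * g) * m⁻¹ ∈ (P : Subgroup G) := hconj _ (Subgroup.mem_zpowers _)
  have hu : g * m⁻¹ ∈ Subgroup.normalizer ((P : Subgroup G) : Set G) := by
    by_contra hu
    have h3 := hTI (g * m⁻¹) hu
    have h4 : x ∈ (P : Subgroup G) ⊓ (MulAut.conj (g * m⁻¹) • (P : Subgroup G)) := by
      refine Subgroup.mem_inf.mpr ⟨hx, ?_⟩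
      rw [Subgroup.mem_pointwise_smul_iff_inv_smul_mem]
      have : (MulAut.conj (g * m⁻¹))⁻¹ • x = m * (g⁻¹ * x * g) * m⁻¹ := by
        rw [MulAut.smul_def, MulAut.conj_inv_apply]
        group
      rw [this]
      exact h2
    rw [h3] at h4
    exact hx1 ((Subgroup.mem_bot).mp h4)
  apply hg
  have : g = g * m⁻¹ * m := by group
  rw [this]
  exact H.mul_mem (hH hu) hm

/-- **Commutants.**  Let `P` be a TI Sylow `p`-subgroup of `G`, `H ≥ N_G(P)` and `ρ` a complex
representation of `G` whose degree `n` satisfies `n² ≤ |P|`.  Every endomorphism commuting with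
`ρ(H)` commutes with `ρ(G)`. -/
theorem commutant_eq {G : Type*} [Group G] [Fintype G] {p : ℕ} [Fact p.Prime] (P : Sylow p G)
    (hTI : ∀ g : G, g ∉ Subgroup.normalizer ((P : Subgroup G) : Set G) →
      (P : Subgroup G) ⊓ (MulAut.conj g • (P : Subgroup G)) = ⊥)
    (H : Subgroup G) (hH : Subgroup.normalizer ((P : Subgroup G) : Set G) ≤ H)
    {V : Type*} [AddCommGroup V] [Module ℂ V] [FiniteDimensional ℂ V] (ρ : Representation ℂ G V)
    (hdeg : Module.finrank ℂ V ^ 2 ≤ Nat.card (P : Subgroup G))
    (A : V →ₗ[ℂ] V) (hA : ∀ h ∈ H, (Representation.linHom ρ ρ) h A = A) (g : G) :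
    (Representation.linHom ρ ρ) g A = A := by
  classical
  refine fixed_of_free (P : Subgroup G) H P.isPGroup' (le_trans Subgroup.le_normalizer hH)
    (fun g hg x hx hy => ti_free P hTI H hH g hg x hx hy) (Representation.linHom ρ ρ) ?_ A hA g
  intro B hB hli
  letI : Fintype (P : Subgroup G) := Fintype.ofFinite _
  have htr : ∀ g' : G, LinearMap.trace ℂ V ((Representation.linHom ρ ρ) g' B) =
      LinearMap.trace ℂ V B := by
    intro g'
    rw [Representation.linHom_apply]
    have h1 : ρ g' ∘ₗ B ∘ₗ ρ g'⁻¹ = ρ g' * (B * ρ g'⁻¹) := rfl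
    rw [h1, LinearMap.trace_mul_comm, mul_assoc, ← map_mul, inv_mul_cancel, map_one, mul_one]
  have hB0 : LinearMap.trace ℂ V B = 0 := by
    have h1 := congrArg (LinearMap.trace ℂ V) hB
    rw [map_sum, map_zero] at h1
    simp only [htr, Finset.sum_const, Finset.card_univ, nsmul_eq_mul] at h1
    rcases mul_eq_zero.mp h1 with h | h
    · exact absurd h (by exact_mod_cast Fintype.card_ne_zero)
    · exact h
  by_cases hn : Module.finrank ℂ V = 0
  · have hsub : Subsingleton V := Module.finrank_zero_iff.mp hn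
    have h1 := hli.ne_zero (1 : (P : Subgroup G))
    apply h1
    apply LinearMap.ext
    intro v
    exact Subsingleton.elim _ _
  · have hnot : (1 : V →ₗ[ℂ] V) ∉ Submodule.span ℂ
        (Set.range fun x : (P : Subgroup G) => (Representation.linHom ρ ρ) (x : G) B) := by
      intro h1
      have hle : Submodule.span ℂ
          (Set.range fun x : (P : Subgroup G) => (Representation.linHom ρ ρ) (x : G) B) ≤
          LinearMap.ker (LinearMap.trace ℂ V) := by
        refine Submodule.span_le.mpr ?_
        rintro _ ⟨x, rfl⟩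
        show LinearMap.trace ℂ V ((Representation.linHom ρ ρ) (x : G) B) = 0
        rw [htr, hB0]
      have h2 : LinearMap.trace ℂ V (1 : V →ₗ[ℂ] V) = 0 := hle h1
      rw [LinearMap.trace_one] at h2
      exact hn (by exact_mod_cast h2)
    have hli' := linearIndependent_option'.mpr ⟨hli, hnot⟩
    have h3 := hli'.fintype_card_le_finrank
    rw [Fintype.card_option, Module.finrank_linearMap] at h3
    have h4 : Fintype.card (P : Subgroup G) = Nat.card (P : Subgroup G) :=
      (Nat.card_eq_fintype_card).symm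
    rw [h4] at h3
    have h5 : Module.finrank ℂ V ^ 2 = Module.finrank ℂ V * Module.finrank ℂ V := sq _
    omega

/-- The norm of a character is the dimension of the commutant. -/
theorem classInner_char_eq_finrank {G : Type*} [Group G] [Fintype G]
    {V : Type*} [AddCommGroup V] [Module ℂ V] [FiniteDimensional ℂ V] (ρ : Representation ℂ G V) :
    classInner ρ.character ρ.character =
      (Module.finrank ℂ (Representation.invariants (Representation.linHom ρ ρ)) : ℂ) := by
  haveI : Invertible (Nat.card G : ℂ) := invertibleOfNonzero (by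
    exact_mod_cast (Nat.card_pos (α := G)).ne')
  rw [← Representation.card_inv_mul_sum_char_eq_finrank]
  unfold classInner
  congr 1
  refine Finset.sum_congr rfl fun g _ => ?_
  rw [Representation.char_linHom, Helper4.char_inv, mul_comm]

/-- **Restriction to overgroups of the normalizer of a TI Sylow subgroup.**  A character `χ`
with `χ(1)² ≤ |P|` has the same norm on `G` and on any `H ≥ N_G(P)`. -/
theorem classInner_restrict_eq {G : Type*} [Group G] [Fintype G] {p : ℕ} [Fact p.Prime]
    (P : Sylow p G)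
    (hTI : ∀ g : G, g ∉ Subgroup.normalizer ((P : Subgroup G) : Set G) →
      (P : Subgroup G) ⊓ (MulAut.conj g • (P : Subgroup G)) = ⊥)
    (χ : G → ℂ) (hχ : IsCharacter G χ)
    (hdeg : charDegree χ ^ 2 ≤ Nat.card (P : Subgroup G))
    (H : Subgroup G) [Fintype H] (hH : Subgroup.normalizer ((P : Subgroup G) : Set G) ≤ H) :
    classInner χ χ = classInner (fun h : H => χ h) (fun h : H => χ h) := by
  obtain ⟨n, ρ, rfl⟩ := hχ
  have hfr : Module.finrank ℂ (Fin n → ℂ) = n := Module.finrank_fin_fun ℂ
  have hd : charDegree ρ.character = n := by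
    unfold charDegree
    rw [Representation.char_one, hfr]
    simp
  rw [hd] at hdeg
  let ρH : Representation ℂ H (Fin n → ℂ) := ρ.comp H.subtype
  have hchar : (fun h : H => ρ.character h) = ρH.character := rfl
  rw [hchar, classInner_char_eq_finrank ρ, classInner_char_eq_finrank ρH]
  have hinv : Representation.invariants (Representation.linHom ρ ρ) =
      Representation.invariants (Representation.linHom ρH ρH) := by
    ext A
    rw [Representation.mem_invariants, Representation.mem_invariants]
    constructor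
    · intro h x
      exact h (x : G)
    · intro h g
      refine commutant_eq P hTI H hH ρ (by rw [hfr]; exact hdeg) A ?_ g
      intro x hx
      exact h ⟨x, hx⟩
  rw [hinv]

end Cfsg.Agent.Lib.Helper22
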