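import Mathlib
import Cfsg.Prelude.Def_Characters
import Cfsg.Prelude.Def_Blocks
import Cfsg.Prelude.Def_Local
import Cfsg.Agent.Lib.Helper22.TILat3

set_option autoImplicit false

namespace Cfsg.Agent.Lib.Helper22

open Cfsg
open scoped BigOperators ComplexConjugate Pointwise

/-- **Commutants, general form.**  `P ≤ H ≤ G`, `P` a `p`-group acting freely on the cosets of
`H` other than `H`, `ρ` a complex representation of degree `n` with `n² ≤ |P|`: every
endomorphism commuting with `ρ(H)` commutes with `ρ(G)`. -/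
theorem commutant_of_free {G : Type*} [Group G] [Finite G] {p : ℕ} [Fact p.Prime]
    (P H : Subgroup G) (hP : IsPGroup p P) (hPH : P ≤ H)
    (hfree : ∀ g : G, g ∉ H → ∀ x ∈ P, g⁻¹ * x * g ∈ H → x = 1)
    {V : Type*} [AddCommGroup V] [Module ℂ V] [FiniteDimensional ℂ V] (ρ : Representation ℂ G V)
    (hdeg : Module.finrank ℂ V ^ 2 ≤ Nat.card P)
    (A : V →ₗ[ℂ] V) (hA : ∀ h ∈ H, (Representation.linHom ρ ρ) h A = A) (g : G) :
    (Representation.linHom ρ ρ) g A = A := by
  classical
  letI : Fintype G := Fintype.ofFinite G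
  refine fixed_of_free P H hP hPH hfree (Representation.linHom ρ ρ) ?_ A hA g
  intro B hB hli
  letI : Fintype P := Fintype.ofFinite _
  have htr : ∀ g' : G, LinearMap.trace ℂ V ((Representation.linHom ρ ρ) g' B) =
      LinearMap.trace ℂ V B := by
    intro g'
    rw [Representation.linHom_apply]
    have h1 : ρ g' ∘ₗ B ∘ₗ ρ g'⁻¹ = ρ g' * (B * ρ g'⁻¹) := rfl
    rw [h1, LinearMap.trace_mul_comm, mul_assoc, ← map_mul, inv_mul_cancel, map_one, mul_one]
  have hB0 : LinearMap.trace ℂ V B = 0 := by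
    have h1 := congrArg (LinearMap.trace ℂ V) hB
    rw [map_sum, map_zero] at h1
    simp only [htr, Finset.sum_const, Finset.card_univ, nsmul_eq_mul] at h1
    rcases mul_eq_zero.mp h1 with h | h
    · exact absurd h (by exact_mod_cast Fintype.card_ne_zero)
    · exact h
  by_cases hn : Module.finrank ℂ V = 0
  · have hsub : Subsingleton V := Module.finrank_zero_iff.mp hn
    have h1 := hli.ne_zero (1 : P)
    apply h1
    apply LinearMap.ext
    intro v
    exact Subsingleton.elim _ _
  · have hnot : (1 : V →ₗ[ℂ] V) ∉ Submodule.span ℂ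
        (Set.range fun x : P => (Representation.linHom ρ ρ) (x : G) B) := by
      intro h1
      have hle : Submodule.span ℂ
          (Set.range fun x : P => (Representation.linHom ρ ρ) (x : G) B) ≤
          LinearMap.ker (LinearMap.trace ℂ V) := by
        refine Submodule.span_le.mpr ?_
        rintro _ ⟨x, rfl⟩
        show LinearMap.trace ℂ V ((Representation.linHom ρ ρ) (x : G) B) = 0
        rw [htr, hB0]
      have h2 : LinearMap.trace ℂ V (1 : V →ₗ[ℂ] V) = 0 := hle h1
      rw [LinearMap.trace_one] at h2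
      exact hn (by exact_mod_cast h2)
    have hli' := linearIndependent_option'.mpr ⟨hli, hnot⟩
    have h3 := hli'.fintype_card_le_finrank
    rw [Fintype.card_option, Module.finrank_linearMap] at h3
    have h4 : Fintype.card P = Nat.card P := (Nat.card_eq_fintype_card).symm
    rw [h4] at h3
    have h5 : Module.finrank ℂ V ^ 2 = Module.finrank ℂ V * Module.finrank ℂ V := sq _
    omega

/-- In a `p`-solvable group of order divisible by `p` there are normal subgroups `K ≤ L` with
`K` a `p'`-group and `L/K` a nontrivial `p`-group. -/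
theorem psolv_step {G : Type*} [Group G] [Finite G] (p : ℕ) [hp : Fact p.Prime]
    (hsolv : IsPSolvable p G) (hpG : p ∣ Nat.card G) :
    ∃ K L : Subgroup G, K.Normal ∧ L.Normal ∧ K ≤ L ∧ ¬ p ∣ Nat.card K ∧
      ∃ m : ℕ, m ≠ 0 ∧ K.relIndex L = p ^ m := by
  obtain ⟨n, Hc, h0, hlast, hmono, hnorm, hstep⟩ := hsolv
  have hp1 : ¬ p ∣ 1 := fun h => hp.out.one_lt.ne' (Nat.dvd_one.mp h)
  have hex : ∃ i : Fin n, ¬ p ∣ Nat.card (Hc i.castSucc) ∧ p ∣ Nat.card (Hc i.succ) := by
    by_contra hcon
    push Not at hcon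
    have hall : ∀ j : Fin (n + 1), ¬ p ∣ Nat.card (Hc j) := by
      intro j
      induction j using Fin.induction with
      | zero => rw [h0, Subgroup.card_bot]; exact hp1
      | succ i ih => exact hcon i ih
    apply hall (Fin.last n)
    rw [hlast, Subgroup.card_top]
    exact hpG
  obtain ⟨i, hi1, hi2⟩ := hex
  have hle : Hc i.castSucc ≤ Hc i.succ := hmono (Fin.castSucc_lt_succ (i := i)).le
  have hcard := Helper41.card_mul_relIndex_of_le hle
  have hpr : p ∣ (Hc i.castSucc).relIndex (Hc i.succ) := by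
    rw [← hcard] at hi2
    exact (hp.out.dvd_mul.mp hi2).resolve_left hi1
  rcases hstep i with ⟨m, hm⟩ | hcop
  · refine ⟨Hc i.castSucc, Hc i.succ, hnorm _, hnorm _, hle, hi1, m, ?_, hm⟩
    rintro rfl
    rw [hm, pow_zero] at hpr
    exact hp1 hpr
  · exact absurd hpr ((Nat.Prime.coprime_iff_not_dvd hp.out).mp hcop.symm)

/-- **`p`-solvable groups with a TI Sylow `p`-subgroup.**  If such a group has a faithful
complex representation of degree `n` with `n² ≤ |P|`, then `P` is normal. -/
theorem ti_psolvable_normal {G : Type*} [Group G] [Finite G] (p : ℕ) [hp : Fact p.Prime]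
    (hsolv : IsPSolvable p G) (P : Sylow p G)
    (hTI : ∀ g : G, g ∉ Subgroup.normalizer ((P : Subgroup G) : Set G) →
      (P : Subgroup G) ⊓ (MulAut.conj g • (P : Subgroup G)) = ⊥)
    {V : Type*} [AddCommGroup V] [Module ℂ V] [FiniteDimensional ℂ V] (ρ : Representation ℂ G V)
    (hfaith : ∀ g : G, ρ g = 1 → g = 1)
    (hdeg : Module.finrank ℂ V ^ 2 ≤ Nat.card (P : Subgroup G)) :
    (P : Subgroup G).Normal := by
  classical
  by_cases hP1 : (P : Subgroup G) = ⊥
  · rw [hP1]
    infer_instance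
  set M : Subgroup G := Subgroup.normalizer ((P : Subgroup G) : Set G) with hM
  have hPM : (P : Subgroup G) ≤ M := Subgroup.le_normalizer
  obtain ⟨kP, hkP⟩ := IsPGroup.iff_card.mp P.isPGroup'
  have hkP0 : kP ≠ 0 := by
    rintro rfl
    rw [pow_zero] at hkP
    exact hP1 ((Subgroup.card_eq_one).mp hkP)
  have hpG : p ∣ Nat.card G :=
    dvd_trans (by rw [hkP]; exact dvd_pow_self p hkP0) (Subgroup.card_subgroup_dvd_card _)
  obtain ⟨K, L, hKn, hLn, hKL, hpK, m, hm0, hm⟩ := psolv_step p hsolv hpG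
  haveI := hKn
  haveI := hLn
  have hKP : K ⊓ (P : Subgroup G) = ⊥ := by
    apply Subgroup.inf_eq_bot_of_coprime
    rw [hkP]
    exact Nat.Coprime.pow_right _ ((Nat.Prime.coprime_iff_not_dvd hp.out).mpr hpK).symm
  -- elements of `K` normalizing `P` centralize `P`
  have hcent : ∀ k ∈ K, k ∈ M → ∀ w ∈ (P : Subgroup G), k * w = w * k := by
    intro k hk hkM w hw
    have h1 : k * w * k⁻¹ * w⁻¹ ∈ K ⊓ (P : Subgroup G) := by
      refine Subgroup.mem_inf.mpr ⟨?_, ?_⟩
      · have : k * w * k⁻¹ * w⁻¹ = k * (w * k⁻¹ * w⁻¹) := by group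
        rw [this]
        exact K.mul_mem hk (hKn.conj_mem _ (K.inv_mem hk) w)
      · exact (P : Subgroup G).mul_mem ((Subgroup.mem_normalizer_iff.mp hkM w).mp hw)
          ((P : Subgroup G).inv_mem hw)
    rw [hKP, Subgroup.mem_bot] at h1
    have : k * w = (k * w * k⁻¹ * w⁻¹) * (w * k) := by group
    rw [this, h1, one_mul]
  -- a nontrivial central element of `P`
  haveI : Nontrivial (P : Subgroup G) := (Subgroup.nontrivial_iff_ne_bot _).mpr hP1
  haveI : Nontrivial (Subgroup.center (P : Subgroup G)) := P.isPGroup'.center_nontrivial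
  obtain ⟨⟨z', hz'⟩, hz'1⟩ := exists_ne (1 : Subgroup.center (P : Subgroup G))
  obtain ⟨z, hzP⟩ := z'
  have hz1 : z ≠ 1 := by
    intro h
    apply hz'1
    apply Subtype.ext
    apply Subtype.ext
    exact h
  have hzc : ∀ x ∈ (P : Subgroup G), x * z = z * x := by
    intro x hx
    have h1 := (Subgroup.mem_center_iff.mp hz') ⟨x, hx⟩
    exact congrArg Subtype.val h1
  -- key claim: `K` normalizes `P`
  have hKM : K ≤ M := by
    set Y : Subgroup G := K ⊔ (P : Subgroup G) with hY
    have hKY : K ≤ Y := le_sup_left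
    have hPY : (P : Subgroup G) ≤ Y := le_sup_right
    let P' : Subgroup Y := (P : Subgroup G).subgroupOf Y
    let H' : Subgroup Y := M.subgroupOf Y
    have hP' : IsPGroup p P' := P.isPGroup'.comap_subtype
    have hPH' : P' ≤ H' := by
      intro x hx
      exact hPM (Subgroup.mem_subgroupOf.mp hx)
    have hfree' : ∀ g : Y, g ∉ H' → ∀ x ∈ P', g⁻¹ * x * g ∈ H' → x = 1 := by
      intro g hg x hx hy
      have h1 : (x : G) = 1 := ti_free P hTI M le_rfl (g : G)
        (fun h => hg (Subgroup.mem_subgroupOf.mpr h)) (x : G) (Subgroup.mem_subgroupOf.mp hx)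
        (by
          have := Subgroup.mem_subgroupOf.mp hy
          simpa using this)
      exact Subtype.ext h1
    let ρY : Representation ℂ Y V := ρ.comp Y.subtype
    have hcardP' : Nat.card P' = Nat.card (P : Subgroup G) :=
      Nat.card_congr (Subgroup.subgroupOfEquivOfLe hPY).toEquiv
    have hA : ∀ h ∈ H', (Representation.linHom ρY ρY) h (ρ z) = ρ z := by
      intro h hh
      have hhM : (h : G) ∈ M := Subgroup.mem_subgroupOf.mp hh
      have hcomm : (h : G) * z = z * (h : G) := by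
        have h1 : (h : G) ∈ ((K ⊔ (P : Subgroup G) : Subgroup G) : Set G) := h.2
        rw [Subgroup.normal_mul] at h1
        obtain ⟨k, hk, x, hx, hkx⟩ := Set.mem_mul.mp h1
        have hkM : k ∈ M := by
          have : k = (h : G) * x⁻¹ := by rw [← hkx]; group
          rw [this]
          exact M.mul_mem hhM (M.inv_mem (hPM hx))
        rw [← hkx]
        calc k * x * z = k * (x * z) := by group
          _ = k * (z * x) := by rw [hzc x hx]
          _ = (k * z) * x := by group
          _ = (z * k) * x := by rw [hcent k hk hkM z hzP]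
          _ = z * (k * x) := by group
      rw [Representation.linHom_apply]
      show ρ (h : G) ∘ₗ ρ z ∘ₗ ρ ((h⁻¹ : Y) : G) = ρ z
      have h2 : ρ (h : G) ∘ₗ ρ z ∘ₗ ρ ((h⁻¹ : Y) : G) = ρ ((h : G) * (z * (h : G)⁻¹)) := by
        rw [map_mul, map_mul]
        rfl
      rw [h2]
      congr 1
      rw [← mul_assoc, hcomm]
      group
    have hall : ∀ y : Y, (y : G) * z = z * (y : G) := by
      intro y
      have h1 := commutant_of_free P' H' hP' hPH' hfree' ρY (by rw [hcardP']; exact hdeg)
        (ρ z) hA y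
      rw [Representation.linHom_apply] at h1
      have h2 : ρ (y : G) ∘ₗ ρ z ∘ₗ ρ ((y⁻¹ : Y) : G) = ρ ((y : G) * (z * (y : G)⁻¹)) := by
        rw [map_mul, map_mul]
        rfl
      have h3 : ρ ((y : G) * (z * (y : G)⁻¹)) = ρ z := h2.symm.trans h1
      have h4 : ρ ((y : G) * (z * (y : G)⁻¹) * z⁻¹) = 1 := by
        rw [map_mul, h3, ← map_mul, mul_inv_cancel, map_one]
      have h5 := hfaith _ h4
      have : (y : G) * z = ((y : G) * (z * (y : G)⁻¹) * z⁻¹) * (z * (y : G)) := by group
      rw [this, h5, one_mul]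
    intro k hk
    by_contra hkM
    have h1 := hTI k hkM
    have h2 : z ∈ (P : Subgroup G) ⊓ (MulAut.conj k • (P : Subgroup G)) := by
      refine Subgroup.mem_inf.mpr ⟨hzP, ?_⟩
      rw [Subgroup.mem_pointwise_smul_iff_inv_smul_mem]
      have : (MulAut.conj k)⁻¹ • z = z := by
        rw [MulAut.smul_def, MulAut.conj_inv_apply]
        have h3 := hall ⟨k, hKY hk⟩
        have h3' : k * z = z * k := h3
        calc k⁻¹ * z * k = k⁻¹ * (z * k) := by group
          _ = k⁻¹ * (k * z) := by rw [h3']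
          _ = z := by group
      rw [this]
      exact hzP
    rw [h1, Subgroup.mem_bot] at h2
    exact hz1 h2
  -- `L = K ⊔ (P ⊓ L)` normalizes `P`
  set P₁ : Subgroup G := (P : Subgroup G) ⊓ L with hP₁
  have hP₁p : IsPGroup p P₁ := P.isPGroup'.to_le inf_le_left
  have hidx : ¬ p ∣ P₁.relIndex L := Helper41.sylow_inf_normal_not_dvd P L
  obtain ⟨j, hj⟩ := IsPGroup.iff_card.mp hP₁p
  have hc1 : Nat.card K * p ^ m = Nat.card L := by
    rw [← hm]
    exact Helper41.card_mul_relIndex_of_le hKL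
  have hc2 : Nat.card P₁ * P₁.relIndex L = Nat.card L :=
    Helper41.card_mul_relIndex_of_le inf_le_right
  have hdvd : p ^ m ∣ Nat.card P₁ := by
    have h1 : p ^ m ∣ Nat.card P₁ * P₁.relIndex L := by
      rw [hc2, ← hc1]
      exact dvd_mul_left _ _
    have hcop : Nat.Coprime (p ^ m) (P₁.relIndex L) :=
      Nat.Coprime.pow_left _ ((Nat.Prime.coprime_iff_not_dvd hp.out).mpr hidx)
    exact hcop.dvd_of_dvd_mul_right h1
  have hP₁ne : P₁ ≠ ⊥ := by
    intro h
    rw [h, Subgroup.card_bot] at hdvd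
    have : p ∣ 1 := dvd_trans (dvd_pow_self p hm0) hdvd
    exact hp.out.one_lt.ne' (Nat.dvd_one.mp this)
  have hLM : L ≤ M := by
    have hKP₁ : K ⊓ P₁ = ⊥ := by
      apply le_antisymm _ bot_le
      rw [← hKP]
      exact inf_le_inf_left K inf_le_left
    have hcs : Nat.card (P₁ ⊔ K : Subgroup G) = Nat.card K * Nat.card P₁ := by
      rw [Helper41.card_sup_of_normal P₁ K, ← Subgroup.inf_relIndex_right, hKP₁,
        Subgroup.relIndex_bot_left]
    have hle : P₁ ⊔ K ≤ L := sup_le inf_le_right hKL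
    have heq : P₁ ⊔ K = L := by
      apply Subgroup.eq_of_le_of_card_ge hle
      rw [hcs, ← hc1]
      exact Nat.mul_le_mul_left _ (Nat.le_of_dvd Nat.card_pos hdvd)
    rw [← heq]
    exact sup_le (le_trans inf_le_left hPM) hKM
  -- every element normalizes `P`
  obtain ⟨w₀, hw₀, hw₀1⟩ : ∃ w₀ ∈ P₁, w₀ ≠ 1 := by
    by_contra hcon
    push Not at hcon
    exact hP₁ne ((Subgroup.eq_bot_iff_forall _).mpr hcon)
  have hall : ∀ g : G, g ∈ M := by
    intro g
    let Q : Subgroup G := P₁.map (MulAut.conj g).toMonoidHom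
    have hQp : IsPGroup p Q := hP₁p.map _
    have hQL : Q ≤ L := by
      rintro _ ⟨w, hw, rfl⟩
      exact hLn.conj_mem w (Subgroup.mem_inf.mp hw).2 g
    obtain ⟨l, hl, hconj⟩ := Helper41.exists_conj_le_of_not_dvd_relIndex L P₁ Q hP₁p hidx hQL hQp
    have h1 : l * (g * w₀ * g⁻¹) * l⁻¹ ∈ (P : Subgroup G) := by
      have : g * w₀ * g⁻¹ ∈ Q := ⟨w₀, hw₀, rfl⟩
      exact (Subgroup.mem_inf.mp (hconj _ this)).1
    have h2 : (l * g)⁻¹ ∈ M := by
      by_contra hu
      have h3 := hTI _ hu
      have h4 : w₀ ∈ (P : Subgroup G) ⊓ (MulAut.conj (l * g)⁻¹ • (P : Subgroup G)) := by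
        refine Subgroup.mem_inf.mpr ⟨(Subgroup.mem_inf.mp hw₀).1, ?_⟩
        rw [Subgroup.mem_pointwise_smul_iff_inv_smul_mem]
        have : (MulAut.conj (l * g)⁻¹)⁻¹ • w₀ = l * (g * w₀ * g⁻¹) * l⁻¹ := by
          rw [MulAut.smul_def, MulAut.conj_inv_apply]
          group
        rw [this]
        exact h1
      rw [h3, Subgroup.mem_bot] at h4
      exact hw₀1 h4
    have h5 : l * g ∈ M := by
      have := M.inv_mem h2
      rwa [inv_inv] at this
    have : g = l⁻¹ * (l * g) := by group
    rw [this]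
    exact M.mul_mem (M.inv_mem (hLM hl)) h5
  exact Subgroup.normalizer_eq_top_iff.mp (eq_top_iff.mpr fun g _ => hall g)

end Cfsg.Agent.Lib.Helper22
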